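import Cfsg.Agent.H920.FP.Hyp

/-!
# `SL` on a hyperbolic family (helper920, S5717)

`Hyp.theta h : SL(ι, F) →* (V ≃ₗ V)`: `g` on the span of `e`, the dual of `g` on the span of `e'`, trivial on the
orthogonal complement.
-/

set_option autoImplicit false
set_option linter.unusedSectionVars false

namespace Cfsg.Agent.H920.FP

open Module Matrix

section mats

variable {F : Type*} [Field F] {ι : Type*} [Fintype ι] [DecidableEq ι]

/-- the inverse transpose, twisted by a field endomorphism -/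
def dualHom (τ : F →+* F) : Matrix.SpecialLinearGroup ι F →* Matrix.SpecialLinearGroup ι F where
  toFun g := ⟨(((g⁻¹ : Matrix.SpecialLinearGroup ι F) : Matrix ι ι F)ᵀ).map τ, by
    rw [← RingHom.mapMatrix_apply, ← RingHom.map_det, det_transpose, Matrix.SpecialLinearGroup.det_coe, map_one]⟩
  map_one' := by
    apply Subtype.ext
    simp
  map_mul' g h := by
    apply Subtype.ext
    show ((((g * h)⁻¹ : Matrix.SpecialLinearGroup ι F) : Matrix ι ι F)ᵀ).map τ = _ * _
    rw [_root_.mul_inv_rev, Matrix.SpecialLinearGroup.coe_mul, transpose_mul, Matrix.map_mul]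

theorem dualHom_coe (τ : F →+* F) (g : Matrix.SpecialLinearGroup ι F) :
    (dualHom τ g : Matrix ι ι F) = (((g⁻¹ : Matrix.SpecialLinearGroup ι F) : Matrix ι ι F)ᵀ).map τ := rfl

theorem dual_dot (σ τ : F →+* F) (hτ : ∀ c, σ (τ c) = c) (g : Matrix.SpecialLinearGroup ι F) (a b : ι → F) :
    ∑ i, ((g : Matrix ι ι F) *ᵥ a) i * σ (((dualHom τ g : Matrix ι ι F) *ᵥ b) i) = ∑ i, a i * σ (b i) := by
  have h1 : (fun i => σ (((dualHom τ g : Matrix ι ι F) *ᵥ b) i)) =
      ((g⁻¹ : Matrix.SpecialLinearGroup ι F) : Matrix ι ι F)ᵀ *ᵥ (fun i => σ (b i)) := by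
    funext i
    rw [RingHom.map_mulVec, dualHom_coe, Matrix.map_map]
    have : (σ ∘ τ : F → F) = id := funext hτ
    rw [this, Matrix.map_id]
    rfl
  calc ∑ i, ((g : Matrix ι ι F) *ᵥ a) i * σ (((dualHom τ g : Matrix ι ι F) *ᵥ b) i)
      = ((g : Matrix ι ι F) *ᵥ a) ⬝ᵥ
          (((g⁻¹ : Matrix.SpecialLinearGroup ι F) : Matrix ι ι F)ᵀ *ᵥ (fun i => σ (b i))) := by
        rw [← h1]; rfl
    _ = a ⬝ᵥ (fun i => σ (b i)) := by
        rw [dotProduct_mulVec, vecMul_transpose, mulVec_mulVec, ← Matrix.SpecialLinearGroup.coe_mul, inv_mul_cancel,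
          Matrix.SpecialLinearGroup.coe_one, one_mulVec]

/-- block embedding -/
def blk {κ : Type*} [Fintype κ] [DecidableEq κ] :
    Matrix.SpecialLinearGroup ι F →* Matrix.SpecialLinearGroup (ι ⊕ κ) F where
  toFun g := ⟨fromBlocks g 0 0 1, by
    rw [det_fromBlocks_zero₂₁, Matrix.SpecialLinearGroup.det_coe, det_one, one_mul]⟩
  map_one' := by
    apply Subtype.ext
    simp
  map_mul' g h := by
    apply Subtype.ext
    show fromBlocks (((g * h : Matrix.SpecialLinearGroup ι F) : Matrix ι ι F)) 0 0 1 =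
      fromBlocks (g : Matrix ι ι F) 0 0 1 * fromBlocks (h : Matrix ι ι F) 0 0 1
    rw [fromBlocks_multiply]
    simp

/-- lower unitriangular block matrices -/
def low (C : Matrix ι ι F) : Matrix.SpecialLinearGroup (ι ⊕ ι) F :=
  ⟨fromBlocks 1 0 C 1, by rw [det_fromBlocks_zero₁₂, det_one, one_mul]⟩

theorem low_inv (C : Matrix ι ι F) : (low C)⁻¹ = low (-C) := by
  rw [inv_eq_iff_mul_eq_one]
  apply Subtype.ext
  show fromBlocks 1 0 C 1 * fromBlocks 1 0 (-C) 1 = 1
  rw [fromBlocks_multiply]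
  simp

theorem blk_mulVec {κ : Type*} [Fintype κ] [DecidableEq κ] (g : Matrix.SpecialLinearGroup ι F) (a : ι → F)
    (b : κ → F) : ((blk g : Matrix.SpecialLinearGroup (ι ⊕ κ) F) : Matrix (ι ⊕ κ) (ι ⊕ κ) F) *ᵥ Sum.elim a b =
      Sum.elim ((g : Matrix ι ι F) *ᵥ a) b := by
  show fromBlocks _ _ _ _ *ᵥ _ = _
  rw [fromBlocks_mulVec]
  simp

theorem low_mulVec (C : Matrix ι ι F) (a b : ι → F) :
    ((low C : Matrix.SpecialLinearGroup (ι ⊕ ι) F) : Matrix (ι ⊕ ι) (ι ⊕ ι) F) *ᵥ Sum.elim a b =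
      Sum.elim a (C *ᵥ a + b) := by
  show fromBlocks _ _ _ _ *ᵥ _ = _
  rw [fromBlocks_mulVec]
  simp

theorem dual_blk {κ : Type*} [Fintype κ] [DecidableEq κ] (τ : F →+* F) (g : Matrix.SpecialLinearGroup ι F) :
    dualHom τ (blk g : Matrix.SpecialLinearGroup (ι ⊕ κ) F) = blk (dualHom τ g) := by
  apply Subtype.ext
  show (((blk g)⁻¹ : Matrix.SpecialLinearGroup (ι ⊕ κ) F).1ᵀ).map τ = fromBlocks _ _ _ _
  rw [← map_inv]
  show ((fromBlocks _ _ _ _)ᵀ).map τ = _
  rw [fromBlocks_transpose, fromBlocks_map]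
  simp [dualHom_coe]

theorem dual_low_mulVec (τ : F →+* F) (C : Matrix ι ι F) (a b : ι → F) :
    ((dualHom τ (low C) : Matrix.SpecialLinearGroup (ι ⊕ ι) F) : Matrix (ι ⊕ ι) (ι ⊕ ι) F) *ᵥ Sum.elim a b =
      Sum.elim (a - (Cᵀ.map τ) *ᵥ b) b := by
  rw [dualHom_coe, low_inv]
  show ((fromBlocks _ _ _ _)ᵀ).map τ *ᵥ _ = _
  rw [fromBlocks_transpose, fromBlocks_map, fromBlocks_mulVec]
  have h1 : (-C)ᵀ.map τ = -(Cᵀ.map τ) := by
    ext i j
    simp
  rw [h1, Matrix.neg_mulVec]
  simp [sub_eq_add_neg]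

end mats

section theta

variable {F V : Type*} [Field F] [Finite F] [AddCommGroup V] [Module F V] {f : Frm F V} {ι : Type*} [DecidableEq ι]
  [Fintype ι] {e e' : ι → V} (h : Hyp f e e')

theorem Hyp.B_sum (h : Hyp f e e') (a b : ι → F) :
    f.B (∑ i, a i • e i) (∑ i, b i • e' i) = ∑ i, a i * f.σ (b i) := by
  rw [f.B_sum_left]
  refine Finset.sum_congr rfl fun i _ => ?_
  rw [f.B_sum_right, Finset.sum_eq_single i]
  · rw [f.smul_left, f.smul_right, h.d, if_pos rfl, mul_one]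
  · intro j _ hj
    rw [f.smul_left, f.smul_right, h.d, if_neg hj.symm, mul_zero, mul_zero]
  · intro hi; exact absurd (Finset.mem_univ _) hi

variable (e e') in
/-- coordinates -/
def hmap (f : Frm F V) (e e' : ι → V) : ((ι → F) × (ι → F) × f.perp (Sum.elim e e')) →ₗ[F] V where
  toFun v := ∑ i, v.1 i • e i + ∑ i, v.2.1 i • e' i + v.2.2
  map_add' u v := by
    simp only [Prod.fst_add, Prod.snd_add, Pi.add_apply, add_smul, Finset.sum_add_distrib, Submodule.coe_add]
    abel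
  map_smul' c v := by
    simp only [Prod.smul_fst, Prod.smul_snd, Pi.smul_apply, smul_assoc, ← Finset.smul_sum, Submodule.coe_smul,
      smul_add, RingHom.id_apply]

theorem Hyp.B_hmap (h : Hyp f e e') (u v : (ι → F) × (ι → F) × f.perp (Sum.elim e e')) :
    f.B (hmap f e e' u) (hmap f e e' v) =
      ∑ i, u.1 i * f.σ (v.2.1 i) + f.ε * f.σ (∑ i, v.1 i * f.σ (u.2.1 i)) + f.B u.2.2 v.2.2 := by
  show f.B (∑ i, u.1 i • e i + ∑ i, u.2.1 i • e' i + u.2.2) (∑ i, v.1 i • e i + ∑ i, v.2.1 i • e' i + v.2.2) = _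
  have e1 : f.B (∑ i, u.1 i • e i) (∑ i, v.1 i • e i) = 0 := by
    rw [f.B_sum_left]
    refine Finset.sum_eq_zero fun i _ => ?_
    rw [f.B_sum_right]
    refine Finset.sum_eq_zero fun j _ => ?_
    rw [f.smul_left, f.smul_right, h.B, mul_zero, mul_zero]
  have e2 : f.B (∑ i, u.2.1 i • e' i) (∑ i, v.2.1 i • e' i) = 0 := by
    rw [f.B_sum_left]
    refine Finset.sum_eq_zero fun i _ => ?_
    rw [f.B_sum_right]
    refine Finset.sum_eq_zero fun j _ => ?_
    rw [f.smul_left, f.smul_right, h.B', mul_zero, mul_zero]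
  have e3 : ∀ (a : ι → F) (w : V), (∀ i, f.B (e i) w = 0) → f.B (∑ i, a i • e i) w = 0 := by
    intro a w hw
    rw [f.B_sum_left]
    exact Finset.sum_eq_zero fun i _ => by rw [f.smul_left, hw, mul_zero]
  have e4 : ∀ (a : ι → F) (w : V), (∀ i, f.B (e' i) w = 0) → f.B (∑ i, a i • e' i) w = 0 := by
    intro a w hw
    rw [f.B_sum_left]
    exact Finset.sum_eq_zero fun i _ => by rw [f.smul_left, hw, mul_zero]
  have hu1 : ∀ i, f.B (e i) u.2.2 = 0 := fun i => u.2.2.2 (Sum.inl i)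
  have hu2 : ∀ i, f.B (e' i) u.2.2 = 0 := fun i => u.2.2.2 (Sum.inr i)
  have hv1 : ∀ i, f.B (e i) v.2.2 = 0 := fun i => v.2.2.2 (Sum.inl i)
  have hv2 : ∀ i, f.B (e' i) v.2.2 = 0 := fun i => v.2.2.2 (Sum.inr i)
  simp only [f.add_left, f.add_right, e1, e2, e3 _ _ hv1, e4 _ _ hv2, f.refl (e3 _ _ hu1), f.refl (e4 _ _ hu2),
    h.B_sum, f.symm (∑ i, v.1 i • e i) (∑ i, u.2.1 i • e' i)]
  ring

theorem Hyp.q_hmap (h : Hyp f e e') (u : (ι → F) × (ι → F) × f.perp (Sum.elim e e')) :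
    f.q (hmap f e e' u) = f.q u.2.2 + (f.α * ∑ i, u.1 i * f.σ (u.2.1 i) +
      f.β * (f.ε * f.σ (∑ i, u.1 i * f.σ (u.2.1 i)))) := by
  show f.q (∑ i, u.1 i • e i + ∑ i, u.2.1 i • e' i + u.2.2) = _
  have e3 : ∀ (a : ι → F) (w : V), (∀ i, f.B (e i) w = 0) → f.B (∑ i, a i • e i) w = 0 := by
    intro a w hw
    rw [f.B_sum_left]
    exact Finset.sum_eq_zero fun i _ => by rw [f.smul_left, hw, mul_zero]
  have e4 : ∀ (a : ι → F) (w : V), (∀ i, f.B (e' i) w = 0) → f.B (∑ i, a i • e' i) w = 0 := by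
    intro a w hw
    rw [f.B_sum_left]
    exact Finset.sum_eq_zero fun i _ => by rw [f.smul_left, hw, mul_zero]
  have hu1 : ∀ i, f.B (e i) u.2.2 = 0 := fun i => u.2.2.2 (Sum.inl i)
  have hu2 : ∀ i, f.B (e' i) u.2.2 = 0 := fun i => u.2.2.2 (Sum.inr i)
  have q1 : f.q (∑ i, u.1 i • e i) = 0 := by
    refine f.q_sum _ _ (fun i _ => ?_) fun i _ j _ => ?_
    · rw [f.q_smul, h.q, mul_zero]
    · rw [f.smul_left, f.smul_right, h.B, mul_zero, mul_zero]
  have q2 : f.q (∑ i, u.2.1 i • e' i) = 0 := by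
    refine f.q_sum _ _ (fun i _ => ?_) fun i _ j _ => ?_
    · rw [f.q_smul, h.q', mul_zero]
    · rw [f.smul_left, f.smul_right, h.B', mul_zero, mul_zero]
  rw [f.q_add_of (by rw [f.add_left, e3 _ _ hu1, e4 _ _ hu2, add_zero]), f.q_add, q1, q2, h.B_sum,
    f.symm (∑ i, u.1 i • e i) (∑ i, u.2.1 i • e' i), h.B_sum]
  ring

theorem Hyp.hmap_bij (h : Hyp f e e') : Function.Bijective (hmap f e e') := by
  have hs : Function.Surjective f.σ := Finite.injective_iff_surjective.1 f.σ.injective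
  constructor
  · rw [injective_iff_map_eq_zero]
    intro v hv
    have h1 : ∀ i, f.B (e i) (hmap f e e' v) = f.σ (v.2.1 i) := by
      intro i
      have := h.B_hmap (Pi.single i 1, 0, 0) v
      have h2 : hmap f e e' (Pi.single i 1, 0, 0) = e i := by
        show ∑ j, (Pi.single i 1 : ι → F) j • e j + ∑ j, (0 : ι → F) j • e' j + 0 = e i
        simp [Pi.single_apply]
      rw [h2] at this
      rw [this]
      simp [Pi.single_apply]
    have h2 : ∀ i, f.B (e' i) (hmap f e e' v) = f.ε * f.σ (v.1 i) := by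
      intro i
      have := h.B_hmap (0, Pi.single i 1, 0) v
      have h2 : hmap f e e' (0, Pi.single i 1, 0) = e' i := by
        show ∑ j, (0 : ι → F) j • e j + ∑ j, (Pi.single i 1 : ι → F) j • e' j + 0 = e' i
        simp [Pi.single_apply]
      rw [h2] at this
      rw [this]
      simp [Pi.single_apply]
    simp only [hv, f.B_zero_right] at h1 h2
    have h3 : v.2.1 = 0 := funext fun i => (map_eq_zero f.σ).1 (h1 i).symm
    have h4 : v.1 = 0 := funext fun i => by
      have := (h2 i).symm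
      rw [mul_eq_zero, map_eq_zero] at this
      exact this.resolve_left (h.eps_ne i)
    have h5 : (v.2.2 : V) = 0 := by
      have h6 : ∑ i, v.1 i • e i + ∑ i, v.2.1 i • e' i + v.2.2 = (0 : V) := hv
      rw [h3, h4] at h6
      simpa using h6
    exact Prod.ext h4 (Prod.ext h3 (Subtype.ext h5))
  · intro v
    choose a ha using fun i => hs (f.ε⁻¹ * f.B (e' i) v)
    choose b hb using fun i => hs (f.B (e i) v)
    have hr : v - (∑ i, a i • e i + ∑ i, b i • e' i) ∈ f.perp (Sum.elim e e') := by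
      rintro (i | i)
      · show f.B (e i) _ = 0
        rw [f.B_sub_right, f.add_right, f.B_sum_right, f.B_sum_right]
        have : ∑ j, f.B (e i) (a j • e j) = 0 := Finset.sum_eq_zero fun j _ => by rw [f.smul_right, h.B, mul_zero]
        rw [this, zero_add, Finset.sum_eq_single i, f.smul_right, h.d, if_pos rfl, mul_one, hb, sub_self]
        · intro j _ hj
          rw [f.smul_right, h.d, if_neg hj.symm, mul_zero]
        · intro hi; exact absurd (Finset.mem_univ _) hi
      · show f.B (e' i) _ = 0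
        rw [f.B_sub_right, f.add_right, f.B_sum_right, f.B_sum_right]
        have : ∑ j, f.B (e' i) (b j • e' j) = 0 := Finset.sum_eq_zero fun j _ => by rw [f.smul_right, h.B', mul_zero]
        rw [this, add_zero, Finset.sum_eq_single i, f.smul_right, h.d', if_pos rfl, ha]
        · have := h.eps_ne i
          field_simp
          ring
        · intro j _ hj
          rw [f.smul_right, h.d', if_neg hj.symm, mul_zero]
        · intro hi; exact absurd (Finset.mem_univ _) hi
    refine ⟨(a, b, ⟨_, hr⟩), ?_⟩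
    show ∑ i, a i • e i + ∑ i, b i • e' i + (v - (∑ i, a i • e i + ∑ i, b i • e' i)) = v
    abel

/-- the coordinates of a hyperbolic family -/
noncomputable def Hyp.phi (h : Hyp f e e') : ((ι → F) × (ι → F) × f.perp (Sum.elim e e')) ≃ₗ[F] V :=
  LinearEquiv.ofBijective (hmap f e e') h.hmap_bij

theorem Hyp.phi_apply (h : Hyp f e e') (a b : ι → F) (w : f.perp (Sum.elim e e')) :
    h.phi (a, b, w) = ∑ i, a i • e i + ∑ i, b i • e' i + w := rfl

theorem Hyp.phi_eq (h : Hyp f e e') (v : (ι → F) × (ι → F) × f.perp (Sum.elim e e')) :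
    h.phi v = hmap f e e' v := rfl

theorem exists_tau (f : Frm F V) : ∃ τ : F →+* F, (∀ c, f.σ (τ c) = c) ∧ ∀ c, τ (f.σ c) = c := by
  have hb : Function.Bijective f.σ := Finite.injective_iff_bijective.1 f.σ.injective
  refine ⟨(RingEquiv.ofBijective f.σ hb).symm, fun c => (RingEquiv.ofBijective f.σ hb).apply_symm_apply c,
    fun c => (RingEquiv.ofBijective f.σ hb).symm_apply_apply c⟩

/-- the inverse of `σ` -/
noncomputable def Frm.tau (f : Frm F V) : F →+* F := (exists_tau f).choose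

theorem Frm.sigma_tau (f : Frm F V) (c : F) : f.σ (f.tau c) = c := (exists_tau f).choose_spec.1 c

theorem Frm.tau_sigma (f : Frm F V) (c : F) : f.tau (f.σ c) = c := (exists_tau f).choose_spec.2 c

/-- the automorphism of `V` given by `(a, b, w) ↦ (g a, g* b, w)` -/
noncomputable def Hyp.pre (f : Frm F V) (e e' : ι → V) : Matrix.SpecialLinearGroup ι F →*
    (((ι → F) × (ι → F) × f.perp (Sum.elim e e')) ≃ₗ[F] ((ι → F) × (ι → F) × f.perp (Sum.elim e e'))) where
  toFun g := LinearEquiv.prodCongr (Matrix.SpecialLinearGroup.toLin' g)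
    (LinearEquiv.prodCongr (Matrix.SpecialLinearGroup.toLin' (dualHom f.tau g)) (LinearEquiv.refl F _))
  map_one' := by
    rw [map_one, map_one, map_one]
    rfl
  map_mul' g h := by
    rw [map_mul, map_mul, map_mul]
    rfl

/-- **`SL` on a hyperbolic family** -/
noncomputable def Hyp.theta (h : Hyp f e e') : Matrix.SpecialLinearGroup ι F →* (V ≃ₗ[F] V) where
  toFun g := h.phi.symm.trans ((Hyp.pre f e e' g).trans h.phi)
  map_one' := by
    apply LinearEquiv.ext
    intro v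
    show h.phi (Hyp.pre f e e' 1 (h.phi.symm v)) = v
    rw [map_one]
    exact h.phi.apply_symm_apply v
  map_mul' g k := by
    apply LinearEquiv.ext
    intro v
    show h.phi (Hyp.pre f e e' (g * k) (h.phi.symm v)) =
      h.phi (Hyp.pre f e e' g (h.phi.symm (h.phi (Hyp.pre f e e' k (h.phi.symm v)))))
    rw [map_mul, h.phi.symm_apply_apply]
    rfl

theorem Hyp.theta_phi (h : Hyp f e e') (g : Matrix.SpecialLinearGroup ι F) (a b : ι → F)
    (w : f.perp (Sum.elim e e')) : h.theta g (h.phi (a, b, w)) =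
      h.phi ((g : Matrix ι ι F) *ᵥ a, (dualHom f.tau g : Matrix ι ι F) *ᵥ b, w) := by
  show h.phi (Hyp.pre f e e' g (h.phi.symm (h.phi (a, b, w)))) = _
  rw [h.phi.symm_apply_apply]
  rfl

theorem Hyp.theta_isom (h : Hyp f e e') (g : Matrix.SpecialLinearGroup ι F) : f.Isom (h.theta g) := by
  constructor
  · intro u v
    obtain ⟨⟨a, b, w⟩, rfl⟩ := h.phi.surjective u
    obtain ⟨⟨a', b', w'⟩, rfl⟩ := h.phi.surjective v
    rw [h.theta_phi, h.theta_phi, h.phi_eq, h.phi_eq, h.phi_eq, h.phi_eq, h.B_hmap, h.B_hmap]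
    simp only
    rw [dual_dot f.σ f.tau f.sigma_tau, dual_dot f.σ f.tau f.sigma_tau]
  · intro u
    obtain ⟨⟨a, b, w⟩, rfl⟩ := h.phi.surjective u
    rw [h.theta_phi, h.phi_eq, h.phi_eq, h.q_hmap, h.q_hmap]
    simp only
    rw [dual_dot f.σ f.tau f.sigma_tau]

theorem Hyp.theta_inj (h : Hyp f e e') : Function.Injective h.theta := by
  rw [injective_iff_map_eq_one]
  intro g hg
  apply Matrix.SpecialLinearGroup.toLin'_injective
  rw [map_one]
  apply LinearEquiv.ext
  intro a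
  have h1 := h.theta_phi g a 0 0
  rw [hg] at h1
  have h2 := h.phi.injective h1
  exact (congrArg Prod.fst h2).symm

end theta

end Cfsg.Agent.H920.FP
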