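import Cfsg.Agent.H920.FP.Strong
import Cfsg.Agent.H917.FP.Strong
import Cfsg.Agent.H195.FP.FactsSL
import Cfsg.Agent.H375.FP.Rows

/-!
# Assembly of the form types (helper920, S5717)

`strong_form`: top value, facts, bounded rank ⇒ `Strong`. Then `T_Sp`, `T_SU`, `T_OOdd`, `T_OPlus`, `T_OMinus` from
`TopX`, `FactsX`, `BR_X`.
-/

set_option autoImplicit false
set_option linter.unusedSectionVars false

namespace Cfsg.Agent.H920.FP

open Module Matrix Cfsg.Agent.H917.FP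
open Cfsg.Agent.H254.BS.PI (supp FixLE Strong WeakM BR_Sp BR_SU BR_OOdd BR_OPlus BR_OMinus T_Sp T_SU T_OOdd T_OPlus T_OMinus)

/-- the two facts needed of a family: normal subgroups and least orbit length -/
structure Facts {M : Type} [Group M] {ι : Type} [Fintype ι] [DecidableEq ι] {F : Type} [Field F] [Fintype F]
    (m : M →* Matrix ι ι F) : Prop where
  nor : ∀ N : Subgroup M, N.Normal → ¬ N ≤ Subgroup.center M → N = ⊤
  orb : 100 < Fintype.card ι → ∃ D : ℕ, 0 < D ∧ LongOrb D m ∧ Fintype.card F ^ Fintype.card ι ≤ D ^ 4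

theorem MRow.central {M : Type} [Group M] {ι : Type} [Fintype ι] [DecidableEq ι] {F : Type} [Field F]
    {m : M → Matrix ι ι F} (R : MRow M m) (x : M) (hx : supp (m x) = 0) : x ∈ Subgroup.center M := by
  obtain ⟨μ, hμ⟩ := Cfsg.Agent.H195.FP.scalar_of_supp (m x) hx
  rw [Subgroup.mem_center_iff]
  intro y
  apply R.inj
  rw [map_mul, map_mul]
  apply LinearEquiv.ext
  intro v
  show R.ρ y (R.ρ x v) = R.ρ x (R.ρ y v)
  rw [R.coe x, R.coe x, hμ]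
  have h1 : ∀ w : ι → F, Matrix.scalar ι μ *ᵥ w = μ • w := by
    intro w
    rw [Matrix.scalar_apply]
    funext i
    rw [Matrix.mulVec_diagonal]
    rfl
  rw [h1, h1, map_smul]

theorem strong_form (B : ℝ) : ∃ N0 : ℕ, 100 ≤ N0 ∧ ∀ C2 : ℕ, 0 < C2 → ∃ C : ℕ, 0 < C ∧
    ∀ (F : Type) [Field F] [Fintype F] (ι : Type) [Fintype ι] [DecidableEq ι] (M : Type) [Group M] [Finite M]
      (m : M →* Matrix ι ι F) (R : MRow M (fun x => m x)), (17 ≤ Fintype.card ι → TopVal B R) → Facts m →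
      (Fintype.card ι ≤ N0 → WeakM C2 M (Fintype.card F)) → Strong C M (fun x => m x) := by
  obtain ⟨C1, hC1, hL⟩ := form_strong B
  obtain ⟨N0, hN0, hA⟩ := strong_all 21 C1 hC1
  refine ⟨N0, hN0, fun C2 hC2 => ?_⟩
  obtain ⟨C, hC, hS⟩ := hA C2 hC2
  refine ⟨C, hC, ?_⟩
  intro F _ _ ι _ _ M _ _ m R hT hF hW
  have hinj : Function.Injective m := by
    intro x y hxy
    apply R.inj
    apply LinearEquiv.ext
    intro v
    rw [R.coe, R.coe, hxy]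
  refine hS F ι M m hinj ?_ ?_ hF.nor ?_ hW
  · intro x hx Ω _ _ hΩ
    have hc : 17 ≤ Fintype.card ι := by
      have := supp_le_card (m x)
      omega
    exact hL M ι F (fun x => m x) R (hT hc) hc x hx Ω hΩ
  · intro x hx h0
    exact hx (R.central x h0)
  · intro hn
    exact hF.orb (by omega)

/-! ### the natural representations -/

/-- `Sp` -/
def spHom (F : Type) [Field F] (m : ℕ) : Matrix.symplecticGroup (Fin m) F →* Matrix (Fin m ⊕ Fin m) (Fin m ⊕ Fin m) F :=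
  (Matrix.symplecticGroup (Fin m) F).subtype

/-- `SU` -/
def suHom (F : Type) [Field F] (n q : ℕ) : Cfsg.SU n F q →* Matrix (Fin n) (Fin n) F :=
  (Cfsg.slToMat n F).comp (Cfsg.SU n F q).subtype

/-- `Ω` -/
def omHom {ι : Type} [Fintype ι] [DecidableEq ι] {F : Type} [Field F] (Q : (ι → F) → F) :
    Cfsg.Omega F Q →* Matrix ι ι F :=
  (Units.coeHom (Matrix ι ι F)).comp ((Cfsg.isometryGroup F Q).subtype.comp (Cfsg.Omega F Q).subtype)

/-! ### the inputs -/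

def FactsSp : Prop := ∀ (F : Type) [Field F] [Fintype F] (m : ℕ), 2 ≤ m → (m = 2 → 3 ≤ Fintype.card F) →
  Facts (spHom F m)

def FactsSU : Prop := ∀ (F : Type) [Field F] [Fintype F] (n q : ℕ), Fintype.card F = q ^ 2 → 3 ≤ n →
  ¬ (n = 3 ∧ q = 2) → Facts (suHom F n q)

def FactsOOdd : Prop := ∀ (F : Type) [Field F] [Fintype F] (m : ℕ), 3 ≤ m → Odd (Fintype.card F) →
  Facts (omHom (Cfsg.quadFormOdd m F))

def FactsOPlus : Prop := ∀ (F : Type) [Field F] [Fintype F] (m : ℕ), 4 ≤ m →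
  Facts (omHom (Cfsg.quadFormPlus m F))

def FactsOMinus : Prop := ∀ (F : Type) [Field F] [Fintype F] (m : ℕ) (a b : F), 4 ≤ m →
  (∀ z₁ z₂ : F, z₁ ^ 2 + a * z₁ * z₂ + b * z₂ ^ 2 = 0 → z₁ = 0 ∧ z₂ = 0) →
  Facts (omHom (Cfsg.quadFormMinus (m - 1) F a b))

def TopSp : Prop := ∃ B : ℝ, ∀ (F : Type) [Field F] [Fintype F] (m : ℕ), 17 ≤ 2 * m →
  ∀ R : MRow (Matrix.symplecticGroup (Fin m) F) (fun x => (x : Matrix (Fin m ⊕ Fin m) (Fin m ⊕ Fin m) F)), TopVal B R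

def TopSU : Prop := ∃ B : ℝ, ∀ (F : Type) [Field F] [Fintype F] (n q : ℕ), Fintype.card F = q ^ 2 → 17 ≤ n →
  ∀ R : MRow (Cfsg.SU n F q) (fun x => ((x : Matrix.SpecialLinearGroup (Fin n) F) : Matrix (Fin n) (Fin n) F)),
    TopVal B R

def TopOOdd : Prop := ∃ B : ℝ, ∀ (F : Type) [Field F] [Fintype F] (m : ℕ), Odd (Fintype.card F) → 17 ≤ 2 * m + 1 →
  ∀ R : MRow (Cfsg.Omega F (Cfsg.quadFormOdd m F)) (omMat (Cfsg.quadFormOdd m F)), TopVal B R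

def TopOPlus : Prop := ∃ B : ℝ, ∀ (F : Type) [Field F] [Fintype F] (m : ℕ), 17 ≤ 2 * m →
  ∀ R : MRow (Cfsg.Omega F (Cfsg.quadFormPlus m F)) (omMat (Cfsg.quadFormPlus m F)), TopVal B R

def TopOMinus : Prop := ∃ B : ℝ, ∀ (F : Type) [Field F] [Fintype F] (m : ℕ) (a b : F),
  (∀ z₁ z₂ : F, z₁ ^ 2 + a * z₁ * z₂ + b * z₂ ^ 2 = 0 → z₁ = 0 ∧ z₂ = 0) → 17 ≤ 2 * m →
  ∀ R : MRow (Cfsg.Omega F (Cfsg.quadFormMinus (m - 1) F a b)) (omMat (Cfsg.quadFormMinus (m - 1) F a b)), TopVal B R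

/-! ### the assemblies -/

theorem t_sp (hT : TopSp) (hF : FactsSp) (hBR : BR_Sp) : T_Sp := by
  obtain ⟨B, hB⟩ := hT
  obtain ⟨N0, hN0, hA⟩ := strong_form B
  obtain ⟨C2, hC2, hW⟩ := hBR N0
  obtain ⟨C, hC, hS⟩ := hA C2 hC2
  refine ⟨C, hC, fun F _ _ m hm h4 => ?_⟩
  obtain ⟨R⟩ := Cfsg.Agent.H375.FP.sp_row F m
  have hc : Fintype.card (Fin m ⊕ Fin m) = 2 * m := by rw [Fintype.card_sum, Fintype.card_fin]; ring
  refine hS F (Fin m ⊕ Fin m) _ (spHom F m) R (fun h => hB F m (by omega) R) (hF F m hm h4) fun h => ?_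
  exact hW F m hm (by omega) h4

theorem t_su (hT : TopSU) (hF : FactsSU) (hBR : BR_SU) : T_SU := by
  obtain ⟨B, hB⟩ := hT
  obtain ⟨N0, hN0, hA⟩ := strong_form B
  obtain ⟨C2, hC2, hW⟩ := hBR N0
  obtain ⟨C, hC, hS⟩ := hA C2 hC2
  refine ⟨C, hC, fun F _ _ n q hq hn h4 => ?_⟩
  obtain ⟨R⟩ := Cfsg.Agent.H375.FP.su_row F n q hq
  have hc : Fintype.card (Fin n) = n := Fintype.card_fin n
  refine hS F (Fin n) _ (suHom F n q) R (fun h => hB F n q hq (by omega) R) (hF F n q hq hn h4) fun h => ?_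
  exact hW F n q hq hn (by omega) h4

theorem t_oodd (hT : TopOOdd) (hF : FactsOOdd) (hBR : BR_OOdd) : T_OOdd := by
  obtain ⟨B, hB⟩ := hT
  obtain ⟨N0, hN0, hA⟩ := strong_form B
  obtain ⟨C2, hC2, hW⟩ := hBR N0
  obtain ⟨C, hC, hS⟩ := hA C2 hC2
  refine ⟨C, hC, fun F _ _ m hm ho => ?_⟩
  obtain ⟨R⟩ := Cfsg.Agent.H375.FP.odd_row F m ho
  have hc : Fintype.card (Unit ⊕ (Fin m ⊕ Fin m)) = 2 * m + 1 := by
    rw [Fintype.card_sum, Fintype.card_sum, Fintype.card_fin, Fintype.card_unit]; ring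
  refine hS F (Unit ⊕ (Fin m ⊕ Fin m)) _ (omHom (Cfsg.quadFormOdd m F)) R (fun h => hB F m ho (by omega) R)
    (hF F m hm ho) fun h => ?_
  exact hW F m hm (by omega) ho

theorem t_oplus (hT : TopOPlus) (hF : FactsOPlus) (hBR : BR_OPlus) : T_OPlus := by
  obtain ⟨B, hB⟩ := hT
  obtain ⟨N0, hN0, hA⟩ := strong_form B
  obtain ⟨C2, hC2, hW⟩ := hBR N0
  obtain ⟨C, hC, hS⟩ := hA C2 hC2
  refine ⟨C, hC, fun F _ _ m hm => ?_⟩
  obtain ⟨R⟩ := Cfsg.Agent.H375.FP.plus_row F m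
  have hc : Fintype.card (Fin m ⊕ Fin m) = 2 * m := by rw [Fintype.card_sum, Fintype.card_fin]; ring
  refine hS F (Fin m ⊕ Fin m) _ (omHom (Cfsg.quadFormPlus m F)) R (fun h => hB F m (by omega) R)
    (hF F m hm) fun h => ?_
  exact hW F m hm (by omega)

theorem t_ominus (hT : TopOMinus) (hF : FactsOMinus) (hBR : BR_OMinus) : T_OMinus := by
  obtain ⟨B, hB⟩ := hT
  obtain ⟨N0, hN0, hA⟩ := strong_form B
  obtain ⟨C2, hC2, hW⟩ := hBR N0
  obtain ⟨C, hC, hS⟩ := hA C2 hC2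
  refine ⟨C, hC, fun F _ _ m a b hm hab => ?_⟩
  obtain ⟨R⟩ := Cfsg.Agent.H375.FP.minus_row F (m - 1) a b hab
  have hc : Fintype.card ((Fin (m - 1) ⊕ Fin (m - 1)) ⊕ Fin 2) = 2 * m := by
    rw [Fintype.card_sum, Fintype.card_sum, Fintype.card_fin, Fintype.card_fin]; omega
  refine hS F ((Fin (m - 1) ⊕ Fin (m - 1)) ⊕ Fin 2) _ (omHom (Cfsg.quadFormMinus (m - 1) F a b)) R
    (fun h => hB F m a b hab (by omega) R) (hF F m a b hm hab) fun h => ?_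
  exact hW F m a b hm (by omega) hab

end Cfsg.Agent.H920.FP
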