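import Cfsg.Agent.H920.FP.Theta

/-!
# The commuting block transvections (helper920, S5717)

`form_theta`: for an isometry `x` far from the scalars there is a hyperbolic family such that `x θ(L(C)) x⁻¹` commutes with
the whole block `θ(SL_2k)`.
-/

set_option autoImplicit false
set_option linter.unusedSectionVars false

namespace Cfsg.Agent.H920.FP

open Module Matrix

section comm

variable {F V : Type*} [Field F] [Finite F] [AddCommGroup V] [Module F V] {f : Frm F V}
  {J κ : Type*} [DecidableEq J] [Fintype J] [DecidableEq κ] [Fintype κ] {e e' : (J ⊕ J) ⊕ κ → V} (h : Hyp f e e')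

include h

theorem Hyp.B_e_phi (a b : (J ⊕ J) ⊕ κ → F) (w : f.perp (Sum.elim e e')) (i : (J ⊕ J) ⊕ κ) :
    f.B (e i) (h.phi (a, b, w)) = f.σ (b i) := by
  have := h.B_hmap (Pi.single i 1, 0, 0) (a, b, w)
  have h2 : hmap f e e' (Pi.single i 1, 0, 0) = e i := by
    show ∑ j, (Pi.single i 1 : (J ⊕ J) ⊕ κ → F) j • e j + ∑ j, (0 : (J ⊕ J) ⊕ κ → F) j • e' j + 0 = e i
    simp [Pi.single_apply, -Fintype.sum_sum_type]
  rw [h2] at this
  rw [h.phi_eq, this]
  simp [Pi.single_apply, -Fintype.sum_sum_type]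

theorem Hyp.B_e'_phi (a b : (J ⊕ J) ⊕ κ → F) (w : f.perp (Sum.elim e e')) (i : (J ⊕ J) ⊕ κ) :
    f.B (e' i) (h.phi (a, b, w)) = f.ε * f.σ (a i) := by
  have := h.B_hmap (0, Pi.single i 1, 0) (a, b, w)
  have h2 : hmap f e e' (0, Pi.single i 1, 0) = e' i := by
    show ∑ j, (0 : (J ⊕ J) ⊕ κ → F) j • e j + ∑ j, (Pi.single i 1 : (J ⊕ J) ⊕ κ → F) j • e' j + 0 = e' i
    simp [Pi.single_apply, -Fintype.sum_sum_type]
  rw [h2] at this
  rw [h.phi_eq, this]
  simp [Pi.single_apply, -Fintype.sum_sum_type]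

theorem Hyp.theta_blk_low (C : Matrix J J F) (a1 a2 b1 b2 : J → F) (a3 b3 : κ → F) (w : f.perp (Sum.elim e e')) :
    h.theta (blk (low C)) (h.phi (Sum.elim (Sum.elim a1 a2) a3, Sum.elim (Sum.elim b1 b2) b3, w)) =
      h.phi (Sum.elim (Sum.elim a1 (C *ᵥ a1 + a2)) a3,
        Sum.elim (Sum.elim (b1 - (Cᵀ.map f.tau) *ᵥ b2) b2) b3, w) := by
  rw [h.theta_phi, blk_mulVec, low_mulVec, dual_blk, blk_mulVec, dual_low_mulVec]

theorem Hyp.theta_blk (g : Matrix.SpecialLinearGroup (J ⊕ J) F) (a b : J ⊕ J → F) (a3 b3 : κ → F)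
    (w : f.perp (Sum.elim e e')) :
    h.theta (blk g) (h.phi (Sum.elim a a3, Sum.elim b b3, w)) =
      h.phi (Sum.elim ((g : Matrix (J ⊕ J) (J ⊕ J) F) *ᵥ a) a3,
        Sum.elim ((dualHom f.tau g : Matrix (J ⊕ J) (J ⊕ J) F) *ᵥ b) b3, w) := by
  rw [h.theta_phi, blk_mulVec, dual_blk, blk_mulVec]

theorem Hyp.phi_add (a a' b b' : (J ⊕ J) ⊕ κ → F) (w w' : f.perp (Sum.elim e e')) :
    h.phi (a + a', b + b', w + w') = h.phi (a, b, w) + h.phi (a', b', w') := by
  rw [← map_add]; rfl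

/-- **commuting block transvections** -/
theorem Hyp.commute {x : V ≃ₗ[F] V} (hx : f.Isom x)
    (h1 : ∀ i j, f.B (x (e (Sum.inl (Sum.inr i)))) (e (Sum.inl j)) = 0)
    (h2 : ∀ i j, f.B (x (e (Sum.inl (Sum.inr i)))) (e' (Sum.inl j)) = 0)
    (h3 : ∀ i j, f.B (x (e' (Sum.inl (Sum.inl i)))) (e (Sum.inl j)) = 0)
    (h4 : ∀ i j, f.B (x (e' (Sum.inl (Sum.inl i)))) (e' (Sum.inl j)) = 0)
    (C : Matrix J J F) (g : Matrix.SpecialLinearGroup (J ⊕ J) F) :
    Commute (x * h.theta (blk (low C)) * x⁻¹) (h.theta (blk g)) := by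
  set X := x * h.theta (blk (low C)) * x⁻¹ with hX
  set Y := h.theta (blk g) with hY
  -- `X` fixes the vectors orthogonal to `x W`
  have hfix : ∀ v, (∀ i, f.B (x (e (Sum.inl (Sum.inr i)))) v = 0) → (∀ i, f.B (x (e' (Sum.inl (Sum.inl i)))) v = 0) →
      X v = v := by
    intro v hv1 hv2
    show x (h.theta (blk (low C)) (x.symm v)) = v
    obtain ⟨⟨a, b, w⟩, hab⟩ := h.phi.surjective (x.symm v)
    obtain ⟨a12, a3, rfl⟩ : ∃ p q, a = Sum.elim p q := ⟨a ∘ Sum.inl, a ∘ Sum.inr, (Sum.elim_comp_inl_inr a).symm⟩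
    obtain ⟨a1, a2, rfl⟩ : ∃ p q, a12 = Sum.elim p q := ⟨a12 ∘ Sum.inl, a12 ∘ Sum.inr, (Sum.elim_comp_inl_inr a12).symm⟩
    obtain ⟨b12, b3, rfl⟩ : ∃ p q, b = Sum.elim p q := ⟨b ∘ Sum.inl, b ∘ Sum.inr, (Sum.elim_comp_inl_inr b).symm⟩
    obtain ⟨b1, b2, rfl⟩ : ∃ p q, b12 = Sum.elim p q := ⟨b12 ∘ Sum.inl, b12 ∘ Sum.inr, (Sum.elim_comp_inl_inr b12).symm⟩
    have ha1 : a1 = 0 := by
      funext i
      have := h.B_e'_phi (Sum.elim (Sum.elim a1 a2) a3) (Sum.elim (Sum.elim b1 b2) b3) w (Sum.inl (Sum.inl i))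
      rw [hab, hx.B_symm_right, hv2] at this
      have h5 := this.symm
      rw [mul_eq_zero, map_eq_zero] at h5
      exact h5.resolve_left (h.eps_ne (Sum.inl (Sum.inl i)))
    have hb2 : b2 = 0 := by
      funext i
      have := h.B_e_phi (Sum.elim (Sum.elim a1 a2) a3) (Sum.elim (Sum.elim b1 b2) b3) w (Sum.inl (Sum.inr i))
      rw [hab, hx.B_symm_right, hv1] at this
      exact (map_eq_zero f.σ).1 this.symm
    rw [← hab, h.theta_blk_low, ha1, hb2]
    rw [mulVec_zero, mulVec_zero, zero_add, sub_zero]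
    rw [ha1, hb2] at hab
    rw [hab, x.apply_symm_apply]
  -- `Y` fixes the vectors orthogonal to the block
  have hYfix : ∀ v, (∀ i, f.B (e (Sum.inl i)) v = 0) → (∀ i, f.B (e' (Sum.inl i)) v = 0) → Y v = v := by
    intro v hv1 hv2
    obtain ⟨⟨a, b, w⟩, rfl⟩ := h.phi.surjective v
    obtain ⟨a12, a3, rfl⟩ : ∃ p q, a = Sum.elim p q := ⟨a ∘ Sum.inl, a ∘ Sum.inr, (Sum.elim_comp_inl_inr a).symm⟩
    obtain ⟨b12, b3, rfl⟩ : ∃ p q, b = Sum.elim p q := ⟨b ∘ Sum.inl, b ∘ Sum.inr, (Sum.elim_comp_inl_inr b).symm⟩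
    have ha : a12 = 0 := by
      funext i
      have h5 := (h.B_e'_phi (Sum.elim a12 a3) (Sum.elim b12 b3) w (Sum.inl i)).symm
      rw [hv2, mul_eq_zero, map_eq_zero] at h5
      exact h5.resolve_left (h.eps_ne (Sum.inl i))
    have hb : b12 = 0 := by
      funext i
      have h5 := (h.B_e_phi (Sum.elim a12 a3) (Sum.elim b12 b3) w (Sum.inl i)).symm
      rw [hv1, map_eq_zero] at h5
      exact h5
    rw [hY, h.theta_blk, ha, hb, mulVec_zero, mulVec_zero]
  -- the image of `X - 1` is in `x W`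
  have him : ∀ v, ∃ c d : J → F, X v = v + x (∑ i, c i • e (Sum.inl (Sum.inr i)) + ∑ i, d i • e' (Sum.inl (Sum.inl i))) := by
    intro v
    obtain ⟨⟨a, b, w⟩, hab⟩ := h.phi.surjective (x.symm v)
    obtain ⟨a12, a3, rfl⟩ : ∃ p q, a = Sum.elim p q := ⟨a ∘ Sum.inl, a ∘ Sum.inr, (Sum.elim_comp_inl_inr a).symm⟩
    obtain ⟨a1, a2, rfl⟩ : ∃ p q, a12 = Sum.elim p q := ⟨a12 ∘ Sum.inl, a12 ∘ Sum.inr, (Sum.elim_comp_inl_inr a12).symm⟩
    obtain ⟨b12, b3, rfl⟩ : ∃ p q, b = Sum.elim p q := ⟨b ∘ Sum.inl, b ∘ Sum.inr, (Sum.elim_comp_inl_inr b).symm⟩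
    obtain ⟨b1, b2, rfl⟩ : ∃ p q, b12 = Sum.elim p q := ⟨b12 ∘ Sum.inl, b12 ∘ Sum.inr, (Sum.elim_comp_inl_inr b12).symm⟩
    refine ⟨C *ᵥ a1, -((Cᵀ.map f.tau) *ᵥ b2), ?_⟩
    show x (h.theta (blk (low C)) (x.symm v)) = _
    rw [← hab, h.theta_blk_low]
    have hv : v = x (h.phi (Sum.elim (Sum.elim a1 a2) a3, Sum.elim (Sum.elim b1 b2) b3, w)) := by
      rw [hab, x.apply_symm_apply]
    rw [hv, ← map_add]
    congr 1
    rw [h.phi_apply, h.phi_apply]
    simp only [Fintype.sum_sum_type, Sum.elim_inl, Sum.elim_inr, Pi.add_apply, Pi.sub_apply, Pi.neg_apply, add_smul,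
      sub_smul, neg_smul, Finset.sum_add_distrib, Finset.sum_sub_distrib, Finset.sum_neg_distrib]
    abel
  have hxP : ∀ (c d : J → F) i, f.B (e (Sum.inl i))
      (x (∑ i, c i • e (Sum.inl (Sum.inr i)) + ∑ i, d i • e' (Sum.inl (Sum.inl i)))) = 0 := by
    intro c d i
    rw [map_add, f.add_right, map_sum, map_sum, f.B_sum_right, f.B_sum_right, Finset.sum_eq_zero, Finset.sum_eq_zero,
      add_zero]
    · intro j _
      rw [map_smul, f.smul_right, f.refl (h3 j i), mul_zero]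
    · intro j _
      rw [map_smul, f.smul_right, f.refl (h1 j i), mul_zero]
  have hxP' : ∀ (c d : J → F) i, f.B (e' (Sum.inl i))
      (x (∑ i, c i • e (Sum.inl (Sum.inr i)) + ∑ i, d i • e' (Sum.inl (Sum.inl i)))) = 0 := by
    intro c d i
    rw [map_add, f.add_right, map_sum, map_sum, f.B_sum_right, f.B_sum_right, Finset.sum_eq_zero, Finset.sum_eq_zero,
      add_zero]
    · intro j _
      rw [map_smul, f.smul_right, f.refl (h4 j i), mul_zero]
    · intro j _
      rw [map_smul, f.smul_right, f.refl (h2 j i), mul_zero]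
  -- both commute on the complement of the block
  have c1 : ∀ v, (∀ i, f.B (e (Sum.inl i)) v = 0) → (∀ i, f.B (e' (Sum.inl i)) v = 0) → X (Y v) = Y (X v) := by
    intro v hv1 hv2
    obtain ⟨c, d, hcd⟩ := him v
    rw [hYfix v hv1 hv2, hYfix (X v)]
    · intro i
      rw [hcd, f.add_right, hv1, hxP, add_zero]
    · intro i
      rw [hcd, f.add_right, hv2, hxP', add_zero]
  have hD : ∀ a b : J ⊕ J → F, X (h.phi (Sum.elim a 0, Sum.elim b 0, 0)) = h.phi (Sum.elim a 0, Sum.elim b 0, 0) := by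
    intro a b
    have hs : h.phi (Sum.elim a 0, Sum.elim b 0, 0) = ∑ i, a i • e (Sum.inl i) + ∑ i, b i • e' (Sum.inl i) := by
      rw [h.phi_apply]
      simp [Fintype.sum_sum_type]
    apply hfix
    · intro j
      rw [hs, f.add_right, f.B_sum_right, f.B_sum_right, Finset.sum_eq_zero, Finset.sum_eq_zero, add_zero]
      · intro i _
        rw [f.smul_right, h2, mul_zero]
      · intro i _
        rw [f.smul_right, h1, mul_zero]
    · intro j
      rw [hs, f.add_right, f.B_sum_right, f.B_sum_right, Finset.sum_eq_zero, Finset.sum_eq_zero, add_zero]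
      · intro i _
        rw [f.smul_right, h4, mul_zero]
      · intro i _
        rw [f.smul_right, h3, mul_zero]
  have c2 : ∀ a b : J ⊕ J → F, X (Y (h.phi (Sum.elim a 0, Sum.elim b 0, 0))) =
      Y (X (h.phi (Sum.elim a 0, Sum.elim b 0, 0))) := by
    intro a b
    rw [hD, hY, h.theta_blk, hD]
  apply LinearEquiv.ext
  intro v
  show X (Y v) = Y (X v)
  obtain ⟨⟨a, b, w⟩, rfl⟩ := h.phi.surjective v
  obtain ⟨a12, a3, rfl⟩ : ∃ p q, a = Sum.elim p q := ⟨a ∘ Sum.inl, a ∘ Sum.inr, (Sum.elim_comp_inl_inr a).symm⟩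
  obtain ⟨b12, b3, rfl⟩ : ∃ p q, b = Sum.elim p q := ⟨b ∘ Sum.inl, b ∘ Sum.inr, (Sum.elim_comp_inl_inr b).symm⟩
  have hsum : h.phi (Sum.elim a12 a3, Sum.elim b12 b3, w) =
      h.phi (Sum.elim a12 0, Sum.elim b12 0, 0) + h.phi (Sum.elim 0 a3, Sum.elim 0 b3, w) := by
    rw [← h.phi_add, zero_add]
    congr 2
    · funext i; rcases i with i | i <;> simp
    · congr 1
      funext i; rcases i with i | i <;> simp
  rw [hsum, map_add, map_add, map_add, map_add, c2, c1]
  · intro i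
    rw [h.B_e_phi]
    simp
  · intro i
    rw [h.B_e'_phi]
    simp

end comm

section main

variable {F V : Type*} [Field F] [Finite F] [AddCommGroup V] [Module F V] [Finite V] (f : Frm F V)
variable {k : Type*} [Field k] [Finite k] [Algebra k F] [Module k V] [IsScalarTower k F V]
  (hσ : ∀ c : k, f.σ (algebraMap k F c) = algebraMap k F c)

include hσ

/-- **The geometric step, forms**: a hyperbolic family of size `2 m + n` such that `x θ(L(C)) x⁻¹` commutes with
`θ(SL_2m)`. -/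
theorem form_theta {x : V ≃ₗ[F] V} (hx : f.Isom x) {s : ℕ} (hf : Far x.toLinearMap s) (m n : ℕ) (hm : 0 < m)
    (hs : 10 * m + 1 ≤ s) (hn : n = 0 ∨ 2 * (2 * m + n) + 1 ≤ finrank F V) :
    ∃ (e e' : (Fin m ⊕ Fin m) ⊕ Fin n → V) (h : Hyp f e e'), ∀ (C : Matrix (Fin m) (Fin m) F)
      (g : Matrix.SpecialLinearGroup (Fin m ⊕ Fin m) F),
      Commute (x * h.theta (blk (low C)) * x⁻¹) (h.theta (blk g)) := by
  classical
  have hb : Function.Surjective f.σ := Finite.injective_iff_surjective.1 f.σ.injective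
  obtain ⟨u, hu⟩ := exists_good f hσ hx hf (m + m) (by omega)
  obtain ⟨w, w1, w2, w3, w4⟩ := exists_dual_family f (u := u) (a := fun i => x (u i)) hu.q hu.B
    (fun i j => f.refl (hu.Bx j i)) hu.li
  -- `ε ≠ 0`
  let i0 : Fin (m + m) := ⟨0, by omega⟩
  have hε : f.ε ≠ 0 := by
    intro h0
    have h1 := w2 i0 i0
    rw [if_pos rfl, f.symm, h0, zero_mul] at h1
    exact zero_ne_one h1
  obtain ⟨c, hc⟩ := hb f.ε⁻¹
  have hcc : f.σ c * f.ε = 1 := by rw [hc, inv_mul_cancel₀ hε]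
  have w5 : ∀ i j, f.B (w i) (u j) = if i = j then f.ε else 0 := by
    intro i j
    rw [f.symm, w2]
    by_cases hij : i = j
    · subst hij; rw [if_pos rfl, if_pos rfl, map_one, mul_one]
    · rw [if_neg hij, if_neg (fun h => hij h.symm), map_zero, mul_zero]
  have hne : ∀ i j : Fin m, Fin.castAdd m i ≠ Fin.natAdd m j := by
    intro i j h
    have := congrArg Fin.val h
    simp only [Fin.val_castAdd, Fin.val_natAdd] at this
    omega
  let e0 : Fin m ⊕ Fin m → V := Sum.elim (fun i => w (Fin.castAdd m i)) fun i => u (Fin.natAdd m i)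
  let e0' : Fin m ⊕ Fin m → V := Sum.elim (fun i => c • u (Fin.castAdd m i)) fun i => w (Fin.natAdd m i)
  have h0 : Hyp f e0 e0' := by
    refine ⟨?_, ?_, ?_, ?_, ?_⟩
    · rintro (i | i)
      · exact w1 _
      · exact hu.q _
    · rintro (i | i)
      · show f.q (c • _) = 0
        rw [f.q_smul, hu.q, mul_zero]
      · exact w1 _
    · rintro (i | i) (j | j)
      · exact w4 _ _
      · show f.B (w _) (u _) = 0
        rw [w5, if_neg (hne i j)]
      · show f.B (u _) (w _) = 0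
        rw [w2, if_neg (hne j i).symm]
      · exact hu.B _ _
    · rintro (i | i) (j | j)
      · show f.B (c • _) (c • _) = 0
        rw [f.smul_left, f.smul_right, hu.B, mul_zero, mul_zero]
      · show f.B (c • u _) (w _) = 0
        rw [f.smul_left, w2, if_neg (hne i j), mul_zero]
      · show f.B (w _) (c • u _) = 0
        rw [f.smul_right, w5, if_neg (hne j i).symm, mul_zero]
      · exact w4 _ _
    · rintro (i | i) (j | j)
      · show f.B (w _) (c • u _) = _
        rw [f.smul_right, w5]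
        by_cases hij : i = j
        · subst hij; rw [if_pos rfl, if_pos rfl, hcc]
        · rw [if_neg, if_neg, mul_zero]
          · intro h; exact hij (Sum.inl.inj h)
          · intro h; exact hij (Fin.castAdd_injective m m h)
      · show f.B (w _) (w _) = _
        rw [w4, if_neg (by simp)]
      · show f.B (u _) (c • u _) = _
        rw [f.smul_right, hu.B, mul_zero, if_neg (by simp)]
      · show f.B (u _) (w _) = _
        rw [w2]
        by_cases hij : i = j
        · subst hij; rw [if_pos rfl, if_pos rfl]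
        · rw [if_neg, if_neg]
          · intro h; exact hij (Sum.inr.inj h)
          · intro h
            apply hij
            have := congrArg Fin.val h
            simp only [Fin.val_natAdd] at this
            apply Fin.ext; omega
  obtain ⟨g, g', hg⟩ := Hyp.exists_max f hσ h0 n (by
    rcases hn with hn | hn
    · exact Or.inl hn
    · right
      rw [Fintype.card_sum, Fintype.card_fin]; omega)
  refine ⟨Sum.elim e0 g, Sum.elim e0' g', hg, fun C k => hg.commute hx ?_ ?_ ?_ ?_ C k⟩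
  · intro i j
    show f.B (x (u _)) (e0 j) = 0
    rcases j with j | j
    · exact w3 _ _
    · exact f.refl (hu.Bx _ _)
  · intro i j
    show f.B (x (u _)) (e0' j) = 0
    rcases j with j | j
    · show f.B (x (u _)) (c • u _) = 0
      rw [f.smul_right, f.refl (hu.Bx _ _), mul_zero]
    · exact w3 _ _
  · intro i j
    show f.B (x (c • u _)) (e0 j) = 0
    rw [map_smul, f.smul_left]
    rcases j with j | j
    · rw [show f.B (x (u (Fin.castAdd m i))) (e0 (Sum.inl j)) = 0 from w3 _ _, mul_zero]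
    · rw [show f.B (x (u (Fin.castAdd m i))) (e0 (Sum.inr j)) = 0 from f.refl (hu.Bx _ _), mul_zero]
  · intro i j
    show f.B (x (c • u _)) (e0' j) = 0
    rw [map_smul, f.smul_left]
    rcases j with j | j
    · show _ * f.B (x (u _)) (c • u _) = 0
      rw [f.smul_right, f.refl (hu.Bx _ _), mul_zero, mul_zero]
    · rw [show f.B (x (u (Fin.castAdd m i))) (e0' (Sum.inr j)) = 0 from w3 _ _, mul_zero]

end main

end Cfsg.Agent.H920.FP
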