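import Cfsg.Agent.H920.FP.Zero

/-!
# Reflexive forms: one structure for symplectic, orthogonal and unitary spaces (helper920, S5717)

`Frm F V`: a `σ`-sesquilinear form `B`, a function `q` with `q (u + v) = q u + q v + α B u v + β B v u`:
* orthogonal: `σ = 1`, `q` the quadratic form, `B` its polar form, `α = 1`, `β = 0`;
* unitary: `q u = B u u`, `α = β = 1`;
* symplectic: `q = 0`.
-/

set_option autoImplicit false

namespace Cfsg.Agent.H920.FP

open Module

structure Frm (F V : Type*) [Field F] [AddCommGroup V] [Module F V] where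
  σ : F →+* F
  B : V → V → F
  q : V → F
  ε : F
  α : F
  β : F
  add_left : ∀ u v w, B (u + v) w = B u w + B v w
  add_right : ∀ u v w, B u (v + w) = B u v + B u w
  smul_left : ∀ a u v, B (a • u) v = a * B u v
  smul_right : ∀ a u v, B u (a • v) = σ a * B u v
  symm : ∀ u v, B v u = ε * σ (B u v)
  q_add : ∀ u v, q (u + v) = q u + q v + (α * B u v + β * B v u)
  q_smul : ∀ a u, q (a • u) = a * σ a * q u
  iso : ∀ u, q u = 0 → B u u = 0
  nondeg : ∀ u, (∀ v, B u v = 0) → u = 0
  adj : ∀ w v, q w = 0 → B w v = 1 → ∃ c : F, q (v + c • w) = 0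

namespace Frm

variable {F V : Type*} [Field F] [AddCommGroup V] [Module F V] (f : Frm F V)

/-- isometries -/
structure Isom (x : V ≃ₗ[F] V) : Prop where
  B : ∀ u v, f.B (x u) (x v) = f.B u v
  q : ∀ u, f.q (x u) = f.q u

@[simp] theorem B_zero_left (v : V) : f.B 0 v = 0 := by
  have := f.smul_left 0 0 v
  rwa [zero_smul, zero_mul] at this

@[simp] theorem B_zero_right (v : V) : f.B v 0 = 0 := by
  have := f.smul_right 0 v 0
  rwa [zero_smul, map_zero, zero_mul] at this

theorem q_zero : f.q 0 = 0 := by
  have := f.q_smul 0 0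
  rwa [zero_smul, zero_mul, zero_mul] at this

theorem B_neg_left (u v : V) : f.B (-u) v = - f.B u v := by
  rw [← neg_one_smul F, f.smul_left, neg_one_mul]

theorem B_neg_right (u v : V) : f.B u (-v) = - f.B u v := by
  rw [← neg_one_smul F, f.smul_right, map_neg, map_one, neg_one_mul]

theorem B_sub_left (u v w : V) : f.B (u - v) w = f.B u w - f.B v w := by
  rw [sub_eq_add_neg, f.add_left, f.B_neg_left, sub_eq_add_neg]

theorem B_sub_right (u v w : V) : f.B u (v - w) = f.B u v - f.B u w := by
  rw [sub_eq_add_neg, f.add_right, f.B_neg_right, sub_eq_add_neg]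

theorem refl {u v : V} (h : f.B u v = 0) : f.B v u = 0 := by
  rw [f.symm, h, map_zero, mul_zero]

theorem B_sum_left {ι : Type*} (s : Finset ι) (u : ι → V) (v : V) : f.B (∑ i ∈ s, u i) v = ∑ i ∈ s, f.B (u i) v := by
  classical
  induction s using Finset.induction_on with
  | empty => simp
  | insert a s ha ih => rw [Finset.sum_insert ha, Finset.sum_insert ha, f.add_left, ih]

theorem B_sum_right {ι : Type*} (s : Finset ι) (u : V) (v : ι → V) : f.B u (∑ i ∈ s, v i) = ∑ i ∈ s, f.B u (v i) := by
  classical
  induction s using Finset.induction_on with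
  | empty => simp
  | insert a s ha ih => rw [Finset.sum_insert ha, Finset.sum_insert ha, f.add_right, ih]

theorem q_add_of {u v : V} (h : f.B u v = 0) : f.q (u + v) = f.q u + f.q v := by
  rw [f.q_add, h, f.refl h, mul_zero, mul_zero, add_zero, add_zero]

theorem q_sum {ι : Type*} (s : Finset ι) (u : ι → V) (h0 : ∀ i ∈ s, f.q (u i) = 0)
    (h : ∀ i ∈ s, ∀ j ∈ s, f.B (u i) (u j) = 0) : f.q (∑ i ∈ s, u i) = 0 := by
  classical
  induction s using Finset.induction_on with
  | empty => simp [f.q_zero]
  | insert a s ha ih =>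
    rw [Finset.sum_insert ha, f.q_add_of, h0 a (Finset.mem_insert_self a s), ih, add_zero]
    · exact fun i hi => h0 i (Finset.mem_insert_of_mem hi)
    · exact fun i hi j hj => h i (Finset.mem_insert_of_mem hi) j (Finset.mem_insert_of_mem hj)
    · rw [f.B_sum_right]
      exact Finset.sum_eq_zero fun j hj => h a (Finset.mem_insert_self a s) j (Finset.mem_insert_of_mem hj)

theorem Isom.inv {x : V ≃ₗ[F] V} (h : f.Isom x) : f.Isom x.symm := by
  refine ⟨fun u v => ?_, fun u => ?_⟩
  · rw [← h.B, x.apply_symm_apply, x.apply_symm_apply]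
  · rw [← h.q, x.apply_symm_apply]

theorem Isom.B_symm_left {x : V ≃ₗ[F] V} (h : f.Isom x) (u v : V) : f.B (x.symm u) v = f.B u (x v) := by
  rw [← h.B, x.apply_symm_apply]

theorem Isom.B_symm_right {x : V ≃ₗ[F] V} (h : f.Isom x) (u v : V) : f.B u (x.symm v) = f.B (x u) v := by
  rw [← h.B, x.apply_symm_apply]

section quad

variable {k : Type*} [Field k] [Algebra k F] [Module k V] [IsScalarTower k F V]

/-- `q` as a quadratic map over a subfield fixed by `σ` -/
def qMap (hσ : ∀ c : k, f.σ (algebraMap k F c) = algebraMap k F c) : QuadraticMap k V F where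
  toFun := f.q
  toFun_smul c u := by
    rw [← algebraMap_smul F c u, f.q_smul, hσ, Algebra.smul_def, map_mul]
  exists_companion' := by
    refine ⟨LinearMap.mk₂ k (fun u v => f.α * f.B u v + f.β * f.B v u) ?_ ?_ ?_ ?_, fun u v => f.q_add u v⟩
    · intro u v w
      rw [f.add_left, f.add_right]; ring
    · intro c u v
      rw [← algebraMap_smul F c u, f.smul_left, f.smul_right, hσ, Algebra.smul_def]; ring
    · intro u v w
      rw [f.add_left, f.add_right]; ring
    · intro c u v
      rw [← algebraMap_smul F c v, f.smul_left, f.smul_right, hσ, Algebra.smul_def]; ring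

/-- `u ↦ B u (x u)` as a quadratic map over a subfield fixed by `σ` -/
def bMap (hσ : ∀ c : k, f.σ (algebraMap k F c) = algebraMap k F c) (x : V ≃ₗ[F] V) : QuadraticMap k V F where
  toFun u := f.B u (x u)
  toFun_smul c u := by
    rw [← algebraMap_smul F c u, f.smul_left, map_smul, f.smul_right, hσ, Algebra.smul_def, map_mul]; ring
  exists_companion' := by
    refine ⟨LinearMap.mk₂ k (fun u v => f.B u (x v) + f.B v (x u)) ?_ ?_ ?_ ?_, fun u v => ?_⟩
    · intro u v w
      rw [f.add_left, map_add, f.add_right]; ring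
    · intro c u v
      rw [← algebraMap_smul F c u, f.smul_left, map_smul, f.smul_right, hσ, Algebra.smul_def]; ring
    · intro u v w
      rw [f.add_left, map_add, f.add_right]; ring
    · intro c u v
      rw [← algebraMap_smul F c v, f.smul_left, map_smul, f.smul_right, hσ, Algebra.smul_def]; ring
    · show f.B (u + v) (x (u + v)) = f.B u (x u) + f.B v (x v) + (f.B u (x v) + f.B v (x u))
      rw [map_add, f.add_left, f.add_right, f.add_right]; ring

variable [Finite k] [Finite F]

/-- a common zero in every subspace of dimension five -/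
theorem exists_zero (hσ : ∀ c : k, f.σ (algebraMap k F c) = algebraMap k F c) (x : V ≃ₗ[F] V) (Y : Submodule F V)
    (h5 : 5 ≤ finrank F Y) : ∃ y ∈ Y, y ≠ 0 ∧ f.q y = 0 ∧ f.B y (x y) = 0 := by
  let i : Y →ₗ[k] V := Y.subtype.restrictScalars k
  obtain ⟨y, hy, h1, h2⟩ := zero_two ((f.qMap hσ).comp i) ((f.bMap hσ x).comp i) h5
  exact ⟨y, y.2, fun h => hy (Subtype.ext h), h1, h2⟩

end quad

end Frm

end Cfsg.Agent.H920.FP
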