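import Cfsg.Agent.H920.FP.Form

/-!
# A totally singular subspace `W` orthogonal to `x W` (helper920, S5717)

`exists_w`: `x` an isometry with `#ker (a + b x) * |F| ^ s ≤ |V|` for all `(a, b) ≠ 0`, `5 m + 1 ≤ s`: there are
`w_1, …, w_m` such that `w_i, x w_j` are singular, pairwise orthogonal and linearly independent.
-/

set_option autoImplicit false
set_option linter.unusedSectionVars false

namespace Cfsg.Agent.H920.FP

open Module

section count

variable {F V : Type*} [Field F] [Finite F] [AddCommGroup V] [Module F V] [Finite V]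

/-- `x` is far from the scalars: `supp x ≥ s` -/
def Far (x : V →ₗ[F] V) (s : ℕ) : Prop :=
  ∀ a b : F, (a ≠ 0 ∨ b ≠ 0) → Nat.card {u : V // a • u + b • x u = 0} * Nat.card F ^ s ≤ Nat.card V

/-- preimage of a subspace -/
theorem card_preimage (T : V →ₗ[F] V) (M : Submodule F V) :
    Nat.card {u : V // T u ∈ M} ≤ Nat.card {u : V // T u = 0} * Nat.card M := by
  classical
  -- choose a preimage of every element of `M`
  let g : {u : V // T u ∈ M} → {u : V // T u = 0} × M := fun u =>
    (⟨u.1 - Function.surjInv (Set.rangeFactorization_surjective (f := T)) ⟨T u.1, ⟨u.1, rfl⟩⟩, by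
      rw [map_sub]
      have := Function.surjInv_eq (Set.rangeFactorization_surjective (f := T)) ⟨T u.1, ⟨u.1, rfl⟩⟩
      have h2 := congrArg Subtype.val this
      simp only [Set.rangeFactorization] at h2
      rw [h2, sub_self]⟩, ⟨T u.1, u.2⟩)
  rw [← Nat.card_prod]
  refine Nat.card_le_card_of_injective g ?_
  intro u v huv
  have h1 := congrArg (fun z => z.1.1) huv
  have h2 : T u.1 = T v.1 := congrArg (fun z => (z.2.1 : V)) huv
  apply Subtype.ext
  simp only [g] at h1
  have h3 : (⟨T u.1, ⟨u.1, rfl⟩⟩ : Set.range T) = ⟨T v.1, ⟨v.1, rfl⟩⟩ := Subtype.ext h2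
  rw [h3] at h1
  exact sub_left_injective h1

/-- the vectors `u` such that `u`, `x u` are dependent modulo `M` -/
def Bad (x : V →ₗ[F] V) (M : Submodule F V) : Set V :=
  {u | ∃ a b : F, (a ≠ 0 ∨ b ≠ 0) ∧ a • u + b • x u ∈ M}

theorem Bad.smul {x : V →ₗ[F] V} {M : Submodule F V} {u : V} (h : u ∈ Bad x M) (c : F) : c • u ∈ Bad x M := by
  obtain ⟨a, b, h1, h2⟩ := h
  refine ⟨a, b, h1, ?_⟩
  have h3 : a • c • u + b • x (c • u) = c • (a • u + b • x u) := by
    rw [map_smul, smul_add, smul_comm a c, smul_comm b c]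
  rw [h3]
  exact M.smul_mem c h2

theorem zero_mem_bad (x : V →ₗ[F] V) (M : Submodule F V) : (0 : V) ∈ Bad x M :=
  ⟨1, 0, Or.inl one_ne_zero, by simp⟩

theorem card_bad {x : V →ₗ[F] V} {s : ℕ} (hx : Far x s) (M : Submodule F V) :
    Nat.card (Bad x M) * Nat.card F ^ s ≤ (Nat.card F + 1) * Nat.card M * Nat.card V := by
  classical
  have := Fintype.ofFinite F
  have := Fintype.ofFinite V
  -- representatives of the projective line
  let r : Option F → F × F := fun o => o.elim (1, 0) fun a => (a, 1)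
  let S : Option F → Set V := fun o => {u | (r o).1 • u + (r o).2 • x u ∈ M}
  have hS : ∀ o, Nat.card (S o) * Nat.card F ^ s ≤ Nat.card M * Nat.card V := by
    intro o
    have h1 := card_preimage ((r o).1 • LinearMap.id + (r o).2 • x) M
    have h2 := hx (r o).1 (r o).2 (by cases o <;> simp [r])
    calc Nat.card (S o) * Nat.card F ^ s
        ≤ (Nat.card {u : V // (r o).1 • u + (r o).2 • x u = 0} * Nat.card M) * Nat.card F ^ s :=
          Nat.mul_le_mul_right _ h1
      _ = Nat.card M * (Nat.card {u : V // (r o).1 • u + (r o).2 • x u = 0} * Nat.card F ^ s) := by ring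
      _ ≤ Nat.card M * Nat.card V := Nat.mul_le_mul_left _ h2
  have hsub : Bad x M ⊆ ⋃ o, S o := by
    rintro u ⟨a, b, hab, hu⟩
    rw [Set.mem_iUnion]
    by_cases hb : b = 0
    · subst hb
      have ha : a ≠ 0 := by simpa using hab
      refine ⟨none, ?_⟩
      show (1 : F) • u + (0 : F) • x u ∈ M
      rw [zero_smul, add_zero] at hu
      have := M.smul_mem a⁻¹ hu
      rwa [smul_smul, inv_mul_cancel₀ ha, ← add_zero ((1 : F) • u), ← zero_smul F (x u)] at this
    · refine ⟨some (b⁻¹ * a), ?_⟩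
      show (b⁻¹ * a) • u + (1 : F) • x u ∈ M
      have := M.smul_mem b⁻¹ hu
      rwa [smul_add, smul_smul, smul_smul, inv_mul_cancel₀ hb] at this
  have h1 : Nat.card (Bad x M) ≤ ∑ o : Option F, Nat.card (S o) := by
    calc Nat.card (Bad x M) ≤ Nat.card (⋃ o, S o : Set V) := Nat.card_mono (Set.toFinite _) hsub
      _ ≤ ∑ o : Option F, Nat.card (S o) := by
          have := Set.ncard_iUnion_le_of_fintype S
          simp only [← Nat.card_coe_set_eq] at this
          exact this
  calc Nat.card (Bad x M) * Nat.card F ^ s ≤ (∑ o : Option F, Nat.card (S o)) * Nat.card F ^ s :=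
        Nat.mul_le_mul_right _ h1
    _ = ∑ o : Option F, Nat.card (S o) * Nat.card F ^ s := by rw [Finset.sum_mul]
    _ ≤ ∑ _o : Option F, Nat.card M * Nat.card V := Finset.sum_le_sum fun o _ => hS o
    _ = (Nat.card F + 1) * Nat.card M * Nat.card V := by
        rw [Finset.sum_const, Finset.card_univ, Fintype.card_option, smul_eq_mul, Nat.card_eq_fintype_card (α := F),
          mul_assoc]

/-- a subspace of dimension `j` avoiding a small homogeneous set -/
theorem exists_sub (S : Set V) (h0 : (0 : V) ∈ S) (hS : ∀ u ∈ S, ∀ c : F, c • u ∈ S) (E : Submodule F V) (j : ℕ)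
    (h : Nat.card S * Nat.card F ^ (j - 1) < Nat.card E) :
    ∃ Y : Submodule F V, Y ≤ E ∧ finrank F Y = j ∧ ∀ y ∈ Y, y ∈ S → y = 0 := by
  classical
  induction j with
  | zero =>
    refine ⟨⊥, bot_le, finrank_bot F V, fun y hy _ => (Submodule.mem_bot F).1 hy⟩
  | succ j ih =>
    have hF : 1 ≤ Nat.card F := Nat.card_pos
    obtain ⟨Y, hY, hd, hav⟩ := ih (lt_of_le_of_lt (Nat.mul_le_mul_left _ (Nat.pow_le_pow_right hF (by omega))) h)
    have : Module.Finite F V := Module.Finite.of_finite
    have hYc : Nat.card Y = Nat.card F ^ j := by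
      rw [← hd, Module.natCard_eq_pow_finrank (K := F)]
    -- a vector outside `S + Y`
    have hex : ∃ v ∈ E, ∀ u ∈ S, ∀ y ∈ Y, v ≠ u + y := by
      by_contra hcon
      push Not at hcon
      have h1 : Nat.card E ≤ Nat.card (S × Y) := by
        choose! a ha b hb hab using hcon
        refine Nat.card_le_card_of_injective (fun v : E => ((⟨a v.1, ha v.1 v.2⟩ : S), (⟨b v.1, hb v.1 v.2⟩ : Y))) ?_
        intro v w hvw
        apply Subtype.ext
        have h2 : a v.1 = a w.1 := congrArg (fun z => (z.1.1 : V)) hvw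
        have h3 : b v.1 = b w.1 := congrArg (fun z => (z.2.1 : V)) hvw
        rw [hab v.1 v.2, hab w.1 w.2, h2, h3]
      rw [Nat.card_prod, hYc] at h1
      simp only [Nat.add_sub_cancel] at h
      omega
    obtain ⟨v, hvE, hv⟩ := hex
    have hvY : v ∉ Y := fun hvY => hv 0 h0 v hvY (by rw [zero_add])
    refine ⟨Y ⊔ Submodule.span F {v}, sup_le hY ?_, ?_, ?_⟩
    · rw [Submodule.span_le]
      rintro _ rfl
      exact hvE
    · rw [← hd]
      apply Submodule.finrank_sup_span_singleton hvY
    · intro z hz hzS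
      obtain ⟨y, hy, w, hw, rfl⟩ := Submodule.mem_sup.1 hz
      obtain ⟨c, rfl⟩ := Submodule.mem_span_singleton.1 hw
      by_cases hc : c = 0
      · subst hc
        rw [zero_smul, add_zero] at hzS ⊢
        exact hav y hy hzS
      · exfalso
        refine hv (c⁻¹ • (y + c • v)) (hS _ hzS _) (-(c⁻¹ • y)) (Y.neg_mem (Y.smul_mem _ hy)) ?_
        rw [smul_add, smul_smul, inv_mul_cancel₀ hc, one_smul]
        abel

end count

section greedy

variable {F V : Type*} [Field F] [Finite F] [AddCommGroup V] [Module F V] [Finite V] (f : Frm F V)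

/-- the vectors orthogonal to a family -/
def Frm.perp {ι : Type*} (a : ι → V) : Submodule F V where
  carrier := {v | ∀ i, f.B (a i) v = 0}
  zero_mem' := fun i => f.B_zero_right _
  add_mem' := fun {u v} hu hv i => by
    change f.B (a i) (u + v) = 0
    rw [f.add_right, hu i, hv i, add_zero]
  smul_mem' := fun c v hv i => by
    change f.B (a i) (c • v) = 0
    rw [f.smul_right, hv i, mul_zero]

theorem Frm.mem_perp {ι : Type*} {a : ι → V} {v : V} : v ∈ f.perp a ↔ ∀ i, f.B (a i) v = 0 := Iff.rfl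

theorem Frm.card_perp {ι : Type*} [Finite ι] (a : ι → V) :
    Nat.card V ≤ Nat.card (f.perp a) * Nat.card F ^ Nat.card ι := by
  let φ : V →+ (ι → F) :=
    { toFun := fun v i => f.B (a i) v
      map_zero' := funext fun i => f.B_zero_right _
      map_add' := fun u v => funext fun i => f.add_right _ _ _ }
  have h1 : Nat.card φ.ker * φ.ker.index = Nat.card V := AddSubgroup.card_mul_index _
  rw [AddSubgroup.index_ker] at h1
  have h2 : Nat.card φ.ker = Nat.card (f.perp a) := by
    refine Nat.card_congr (Equiv.subtypeEquivRight fun v => ?_)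
    rw [AddMonoidHom.mem_ker]
    exact funext_iff
  have h3 : Nat.card φ.range ≤ Nat.card F ^ Nat.card ι := by
    have := Fintype.ofFinite ι
    have := Fintype.ofFinite F
    calc Nat.card φ.range ≤ Nat.card (ι → F) := Nat.card_le_card_of_injective _ Subtype.val_injective
      _ = Nat.card F ^ Nat.card ι := by
          rw [Nat.card_pi, Finset.prod_const, Finset.card_univ, Nat.card_eq_fintype_card (α := ι)]
  rw [← h1, h2]
  exact Nat.mul_le_mul_left _ h3

/-- `W` and `x W` are totally singular, orthogonal and independent -/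
structure Good {ι : Type*} (x : V ≃ₗ[F] V) (u : ι → V) : Prop where
  q : ∀ i, f.q (u i) = 0
  B : ∀ i j, f.B (u i) (u j) = 0
  Bx : ∀ i j, f.B (u i) (x (u j)) = 0
  li : LinearIndependent F (Sum.elim u (fun i => x (u i)))

variable {k : Type*} [Field k] [Finite k] [Algebra k F] [Module k V] [IsScalarTower k F V]
  (hσ : ∀ c : k, f.σ (algebraMap k F c) = algebraMap k F c)

include hσ

theorem Good.next {x : V ≃ₗ[F] V} (hx : f.Isom x) {s m : ℕ} (hf : Far x.toLinearMap s) (h : 5 * m + 6 ≤ s)
    {u : Fin m → V} (hu : Good f x u) : ∃ y, Good f x (Fin.snoc u y) := by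
  classical
  have := Fintype.ofFinite F
  have : Module.Finite F V := Module.Finite.of_finite
  have hF : 1 < Nat.card F := Finite.one_lt_card
  set M : Submodule F V := Submodule.span F (Set.range (Sum.elim u (fun i => x (u i)))) with hM
  let a : (Fin m ⊕ Fin m) ⊕ Fin m → V := Sum.elim (Sum.elim u fun i => x (u i)) fun i => x.symm (u i)
  have hMc : Nat.card M = Nat.card F ^ (2 * m) := by
    rw [Module.natCard_eq_pow_finrank (K := F), hM, finrank_span_eq_card hu.li, Fintype.card_sum, Fintype.card_fin,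
      two_mul]
  have hE := f.card_perp a
  have hι : Nat.card ((Fin m ⊕ Fin m) ⊕ Fin m) = 3 * m := by
    rw [Nat.card_eq_fintype_card, Fintype.card_sum, Fintype.card_sum, Fintype.card_fin]; ring
  rw [hι] at hE
  have hB := card_bad hf M
  rw [hMc] at hB
  obtain ⟨t, rfl⟩ : ∃ t, s = 5 * m + 6 + t := ⟨s - (5 * m + 6), by omega⟩
  have hlt : Nat.card (Bad x.toLinearMap M) * Nat.card F ^ (5 - 1) < Nat.card (f.perp a) := by
    have hq : Nat.card F + 1 < Nat.card F ^ 2 := by nlinarith
    have hEp : 0 < Nat.card (f.perp a) := Nat.card_pos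
    have hpos : 0 < Nat.card F ^ (5 * m + 2 + t) := by positivity
    refine lt_of_mul_lt_mul_right (a := Nat.card F ^ (5 * m + 2 + t)) ?_ (Nat.zero_le _)
    calc Nat.card (Bad x.toLinearMap M) * Nat.card F ^ (5 - 1) * Nat.card F ^ (5 * m + 2 + t)
        = Nat.card (Bad x.toLinearMap M) * Nat.card F ^ (5 * m + 6 + t) := by
          rw [mul_assoc, ← pow_add]; congr 2; omega
      _ ≤ (Nat.card F + 1) * Nat.card F ^ (2 * m) * Nat.card V := hB
      _ ≤ (Nat.card F + 1) * Nat.card F ^ (2 * m) * (Nat.card (f.perp a) * Nat.card F ^ (3 * m)) :=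
          Nat.mul_le_mul_left _ hE
      _ = (Nat.card F + 1) * (Nat.card (f.perp a) * Nat.card F ^ (5 * m)) := by
          rw [show 5 * m = 2 * m + 3 * m by ring, pow_add]; ring
      _ < Nat.card F ^ 2 * (Nat.card (f.perp a) * Nat.card F ^ (5 * m)) := by
          apply Nat.mul_lt_mul_of_pos_right hq
          positivity
      _ = Nat.card (f.perp a) * Nat.card F ^ (5 * m + 2) := by rw [pow_add]; ring
      _ ≤ Nat.card (f.perp a) * Nat.card F ^ (5 * m + 2 + t) :=
          Nat.mul_le_mul_left _ (Nat.pow_le_pow_right hF.le (by omega))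
  obtain ⟨Y, hYE, hY5, hYB⟩ := exists_sub (Bad x.toLinearMap M) (zero_mem_bad _ _) (fun u hu c => Bad.smul hu c)
    (f.perp a) 5 hlt
  obtain ⟨y, hyY, hy0, hq, hb⟩ := f.exists_zero hσ x Y hY5.ge
  have hyE := hYE hyY
  have e1 : ∀ i, f.B (u i) y = 0 := fun i => hyE (Sum.inl (Sum.inl i))
  have e2 : ∀ i, f.B (x (u i)) y = 0 := fun i => hyE (Sum.inl (Sum.inr i))
  have e3 : ∀ i, f.B (u i) (x y) = 0 := fun i => by
    have : f.B (x.symm (u i)) y = 0 := hyE (Sum.inr i)
    rwa [hx.B_symm_left] at this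
  have hyB : y ∉ Bad x.toLinearMap M := fun h => hy0 (hYB y hyY h)
  refine ⟨y, ⟨?_, ?_, ?_, ?_⟩⟩
  · intro i
    refine Fin.lastCases ?_ (fun i => ?_) i
    · rw [Fin.snoc_last]; exact hq
    · rw [Fin.snoc_castSucc]; exact hu.q i
  · intro i j
    refine Fin.lastCases ?_ (fun i => ?_) i <;> refine Fin.lastCases ?_ (fun j => ?_) j
    · rw [Fin.snoc_last]; exact f.iso y hq
    · rw [Fin.snoc_last, Fin.snoc_castSucc]; exact f.refl (e1 j)
    · rw [Fin.snoc_last, Fin.snoc_castSucc]; exact e1 i
    · rw [Fin.snoc_castSucc, Fin.snoc_castSucc]; exact hu.B i j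
  · intro i j
    refine Fin.lastCases ?_ (fun i => ?_) i <;> refine Fin.lastCases ?_ (fun j => ?_) j
    · rw [Fin.snoc_last]; exact hb
    · rw [Fin.snoc_last, Fin.snoc_castSucc]; exact f.refl (e2 j)
    · rw [Fin.snoc_last, Fin.snoc_castSucc]; exact e3 i
    · rw [Fin.snoc_castSucc, Fin.snoc_castSucc]; exact hu.Bx i j
  · rw [Fintype.linearIndependent_iff]
    intro g hg
    rw [Fintype.sum_sum_type, Fin.sum_univ_castSucc, Fin.sum_univ_castSucc] at hg
    simp only [Sum.elim_inl, Sum.elim_inr, Fin.snoc_castSucc, Fin.snoc_last] at hg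
    have hm : (∑ i : Fin m, g (Sum.inl i.castSucc) • u i) + ∑ i : Fin m, g (Sum.inr i.castSucc) • x (u i) ∈ M := by
      refine M.add_mem (M.sum_mem fun i _ => M.smul_mem _ ?_) (M.sum_mem fun i _ => M.smul_mem _ ?_)
      · exact Submodule.subset_span ⟨Sum.inl i, rfl⟩
      · exact Submodule.subset_span ⟨Sum.inr i, rfl⟩
    have hlast : g (Sum.inl (Fin.last m)) = 0 ∧ g (Sum.inr (Fin.last m)) = 0 := by
      by_contra hcon
      apply hyB
      refine ⟨g (Sum.inl (Fin.last m)), g (Sum.inr (Fin.last m)), ?_, ?_⟩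
      · by_contra h2
        push Not at h2
        exact hcon h2
      · have h3 : g (Sum.inl (Fin.last m)) • y + g (Sum.inr (Fin.last m)) • x y =
            -((∑ i : Fin m, g (Sum.inl i.castSucc) • u i) + ∑ i : Fin m, g (Sum.inr i.castSucc) • x (u i)) := by
          rw [eq_neg_iff_add_eq_zero, ← hg]
          abel
        show g (Sum.inl (Fin.last m)) • y + g (Sum.inr (Fin.last m)) • x y ∈ M
        rw [h3]
        exact M.neg_mem hm
    rw [hlast.1, hlast.2, zero_smul, zero_smul, add_zero, add_zero] at hg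
    have hli := Fintype.linearIndependent_iff.1 hu.li (fun i => g (Sum.map Fin.castSucc Fin.castSucc i)) (by
      rw [Fintype.sum_sum_type]
      simpa using hg)
    intro i
    rcases i with i | i
    · refine Fin.lastCases hlast.1 (fun i => ?_) i
      exact hli (Sum.inl i)
    · refine Fin.lastCases hlast.2 (fun i => ?_) i
      exact hli (Sum.inr i)

/-- **The geometric input**: `5 m + 1 ≤ s = supp x`. -/
theorem exists_good {x : V ≃ₗ[F] V} (hx : f.Isom x) {s : ℕ} (hf : Far x.toLinearMap s) (m : ℕ) (h : 5 * m + 1 ≤ s) :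
    ∃ u : Fin m → V, Good f x u := by
  induction m with
  | zero =>
    refine ⟨Fin.elim0, ⟨fun i => i.elim0, fun i => i.elim0, fun i => i.elim0, ?_⟩⟩
    haveI : IsEmpty (Fin 0 ⊕ Fin 0) := inferInstance
    exact linearIndependent_empty_type
  | succ m ih =>
    obtain ⟨u, hu⟩ := ih (by omega)
    obtain ⟨y, hy⟩ := Good.next f hσ hx hf (by omega) hu
    exact ⟨_, hy⟩

end greedy

end Cfsg.Agent.H920.FP
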