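import Cfsg.Agent.H920.FP.Greedy

/-!
# Hyperbolic families (helper920, S5717)

`exists_dual`: an independent family has all values; `exists_dual_family`: a totally singular family has a dual one;
`Hyp.extend`: a hyperbolic family extends as long as its orthogonal complement has dimension at least 3.
-/

set_option autoImplicit false
set_option linter.unusedSectionVars false

namespace Cfsg.Agent.H920.FP

open Module

section dual

variable {F V : Type*} [Field F] [Finite F] [AddCommGroup V] [Module F V] (f : Frm F V)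

/-- an independent family takes all values -/
theorem exists_dual {ι : Type*} [Finite ι] {a : ι → V} (ha : LinearIndependent F a) (c : ι → F) :
    ∃ v, ∀ i, f.B (a i) v = c i := by
  classical
  have := Fintype.ofFinite ι
  have hσ : Function.Surjective f.σ := (Finite.injective_iff_surjective.1 f.σ.injective)
  let R : Submodule F (ι → F) :=
    { carrier := {c | ∃ v, ∀ i, f.B (a i) v = c i}
      zero_mem' := ⟨0, fun i => f.B_zero_right _⟩
      add_mem' := by
        rintro c d ⟨v, hv⟩ ⟨w, hw⟩
        exact ⟨v + w, fun i => by rw [f.add_right, hv, hw]; rfl⟩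
      smul_mem' := by
        rintro r c ⟨v, hv⟩
        obtain ⟨t, rfl⟩ := hσ r
        exact ⟨t • v, fun i => by rw [f.smul_right, hv]; rfl⟩ }
  by_cases hR : R = ⊤
  · have : c ∈ R := hR ▸ Submodule.mem_top
    exact this
  · exfalso
    obtain ⟨g, hg0, hg⟩ := Submodule.exists_le_ker_of_lt_top R (lt_top_iff_ne_top.2 hR)
    apply hg0
    have h1 : ∑ i, g (Pi.single i 1) • a i = 0 := by
      apply f.nondeg
      intro v
      rw [f.B_sum_left]
      have h2 : g (fun i => f.B (a i) v) = 0 := hg ⟨v, fun i => rfl⟩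
      rw [LinearMap.pi_apply_eq_sum_univ] at h2
      rw [← h2]
      refine Finset.sum_congr rfl fun i _ => ?_
      rw [f.smul_left, smul_eq_mul, mul_comm]
      congr 2
      funext j
      simp [Pi.single_apply, eq_comm]
    have h3 := Fintype.linearIndependent_iff.1 ha _ h1
    apply LinearMap.pi_ext'
    intro i
    ext
    simpa using h3 i

/-- **the dual family** of a totally singular family, orthogonal to a given family `a` -/
theorem exists_dual_family {κ : Type*} [Finite κ] {m : ℕ} {u : Fin m → V} {a : κ → V} (hq : ∀ i, f.q (u i) = 0)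
    (hB : ∀ i j, f.B (u i) (u j) = 0) (ha : ∀ i j, f.B (a i) (u j) = 0) (hli : LinearIndependent F (Sum.elim u a)) :
    ∃ w : Fin m → V, (∀ i, f.q (w i) = 0) ∧ (∀ i j, f.B (u i) (w j) = if i = j then 1 else 0) ∧
      (∀ i j, f.B (a i) (w j) = 0) ∧ ∀ i j, f.B (w i) (w j) = 0 := by
  classical
  have := Fintype.ofFinite κ
  suffices h : ∀ n ≤ m, ∃ w : Fin m → V, (∀ j, j.1 < n → f.q (w j) = 0 ∧
      (∀ i, f.B (u i) (w j) = if i = j then 1 else 0) ∧ ∀ i, f.B (a i) (w j) = 0) ∧
      ∀ i j, i.1 < n → j.1 < n → f.B (w i) (w j) = 0 by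
    obtain ⟨w, h1, h2⟩ := h m le_rfl
    exact ⟨w, fun i => (h1 i i.2).1, fun i j => (h1 j j.2).2.1 i, fun i j => (h1 j j.2).2.2 i,
      fun i j => h2 i j i.2 j.2⟩
  intro n
  induction n with
  | zero =>
    intro _
    exact ⟨fun _ => 0, fun j hj => absurd hj (Nat.not_lt_zero _), fun i j hi => absurd hi (Nat.not_lt_zero _)⟩
  | succ n ih =>
    intro hn
    obtain ⟨w, h1, h2⟩ := ih (by omega)
    set n' : Fin m := ⟨n, by omega⟩ with hn'
    -- the family `u, a, w_j (j < n)` is independent
    let b : (Fin m ⊕ κ) ⊕ {j : Fin m // j.1 < n} → V := Sum.elim (Sum.elim u a) fun j => w j.1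
    have hb : LinearIndependent F b := by
      rw [Fintype.linearIndependent_iff]
      intro g hg
      rw [Fintype.sum_sum_type] at hg
      simp only [b, Sum.elim_inl, Sum.elim_inr] at hg
      have h3 : ∀ j : {j : Fin m // j.1 < n}, g (Sum.inr j) = 0 := by
        intro j
        have h4 := congrArg (f.B (u j.1)) hg
        rw [f.add_right, f.B_zero_right, f.B_sum_right, f.B_sum_right, Fintype.sum_sum_type] at h4
        simp only [Sum.elim_inl, Sum.elim_inr, f.smul_right, hB, f.refl (ha _ _), mul_zero, Finset.sum_const_zero,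
          zero_add] at h4
        rw [Finset.sum_eq_single j] at h4
        · rw [(h1 j.1 j.2).2.1, if_pos rfl, mul_one] at h4
          exact (map_eq_zero f.σ).1 h4
        · intro l _ hl
          rw [(h1 l.1 l.2).2.1, if_neg (fun h => hl (Subtype.ext h.symm)), mul_zero]
        · intro h; exact absurd (Finset.mem_univ _) h
      have h5 : (∑ i, g (Sum.inl i) • Sum.elim u a i) = 0 := by
        rw [← hg, left_eq_add]
        exact Finset.sum_eq_zero fun j _ => by rw [h3, zero_smul]
      have h6 := Fintype.linearIndependent_iff.1 hli _ h5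
      rintro (i | i)
      · exact h6 i
      · exact h3 i
    obtain ⟨v, hv⟩ := exists_dual f hb (Sum.elim (Sum.elim (fun i => if i = n' then 1 else 0) fun _ => 0) fun _ => 0)
    have v1 : ∀ i, f.B (u i) v = if i = n' then 1 else 0 := fun i => hv (Sum.inl (Sum.inl i))
    have v2 : ∀ i, f.B (a i) v = 0 := fun i => hv (Sum.inl (Sum.inr i))
    have v3 : ∀ j : Fin m, j.1 < n → f.B (w j) v = 0 := fun j hj => hv (Sum.inr ⟨j, hj⟩)
    obtain ⟨c, hc⟩ := f.adj (u n') v (hq n') (by rw [v1, if_pos rfl])
    set y := v + c • u n' with hy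
    have y1 : ∀ i, f.B (u i) y = if i = n' then 1 else 0 := fun i => by
      rw [hy, f.add_right, f.smul_right, hB, mul_zero, add_zero, v1]
    have y2 : ∀ i, f.B (a i) y = 0 := fun i => by
      rw [hy, f.add_right, f.smul_right, ha, mul_zero, add_zero, v2]
    have y3 : ∀ j : Fin m, j.1 < n → f.B (w j) y = 0 := fun j hj => by
      rw [hy, f.add_right, f.smul_right, v3 j hj, f.refl (u := u n') (v := w j), mul_zero, add_zero]
      rw [(h1 j hj).2.1, if_neg]
      intro h
      rw [← h] at hj
      exact absurd hj (lt_irrefl n)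
    refine ⟨Function.update w n' y, ?_, ?_⟩
    · intro j hj
      by_cases hjn : j = n'
      · subst hjn
        rw [Function.update_self]
        exact ⟨hc, y1, y2⟩
      · rw [Function.update_of_ne hjn]
        have : j.1 < n := by
          have : j.1 ≠ n := fun h => hjn (Fin.ext h)
          omega
        exact h1 j this
    · intro i j hi hj
      by_cases hin : i = n' <;> by_cases hjn : j = n'
      · subst hin; subst hjn
        rw [Function.update_self]
        exact f.iso y hc
      · subst hin
        rw [Function.update_self, Function.update_of_ne hjn]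
        exact f.refl (y3 j (by have : j.1 ≠ n := fun h => hjn (Fin.ext h); omega))
      · subst hjn
        rw [Function.update_self, Function.update_of_ne hin]
        exact y3 i (by have : i.1 ≠ n := fun h => hin (Fin.ext h); omega)
      · rw [Function.update_of_ne hjn, Function.update_of_ne hin]
        exact h2 i j (by have : i.1 ≠ n := fun h => hin (Fin.ext h); omega)
          (by have : j.1 ≠ n := fun h => hjn (Fin.ext h); omega)

/-- hyperbolic families -/
structure Hyp {ι : Type*} [DecidableEq ι] (e e' : ι → V) : Prop where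
  q : ∀ i, f.q (e i) = 0
  q' : ∀ i, f.q (e' i) = 0
  B : ∀ i j, f.B (e i) (e j) = 0
  B' : ∀ i j, f.B (e' i) (e' j) = 0
  d : ∀ i j, f.B (e i) (e' j) = if i = j then 1 else 0

variable {f}

theorem Hyp.d' {ι : Type*} [DecidableEq ι] {e e' : ι → V} (h : Hyp f e e') (i j : ι) :
    f.B (e' i) (e j) = if i = j then f.ε else 0 := by
  rw [f.symm, h.d]
  by_cases hij : i = j
  · subst hij; rw [if_pos rfl, if_pos rfl, map_one, mul_one]
  · rw [if_neg hij, if_neg (fun h => hij h.symm), map_zero, mul_zero]

theorem Hyp.eps_ne {ι : Type*} [DecidableEq ι] {e e' : ι → V} (h : Hyp f e e') (i : ι) : f.ε ≠ 0 := by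
  intro h0
  have h1 := h.d i i
  rw [if_pos rfl, f.symm, h0, zero_mul] at h1
  exact zero_ne_one h1

theorem Hyp.li {ι : Type*} [DecidableEq ι] [Finite ι] {e e' : ι → V} (h : Hyp f e e') :
    LinearIndependent F (Sum.elim e e') := by
  have := Fintype.ofFinite ι
  rw [Fintype.linearIndependent_iff]
  intro g hg
  rw [Fintype.sum_sum_type] at hg
  simp only [Sum.elim_inl, Sum.elim_inr] at hg
  rintro (j | j)
  · have h4 := congrArg (f.B (e' j)) hg
    rw [f.add_right, f.B_zero_right, f.B_sum_right, f.B_sum_right] at h4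
    simp only [f.smul_right, h.B', mul_zero, Finset.sum_const_zero, add_zero] at h4
    rw [Finset.sum_eq_single j] at h4
    · rw [h.d', if_pos rfl, mul_eq_zero, map_eq_zero] at h4
      exact h4.resolve_right (h.eps_ne j)
    · intro l _ hl
      rw [h.d', if_neg (fun h => hl h.symm), mul_zero]
    · intro h; exact absurd (Finset.mem_univ _) h
  · have h4 := congrArg (f.B (e j)) hg
    rw [f.add_right, f.B_zero_right, f.B_sum_right, f.B_sum_right] at h4
    simp only [f.smul_right, h.B, mul_zero, Finset.sum_const_zero, zero_add] at h4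
    rw [Finset.sum_eq_single j] at h4
    · rwa [h.d, if_pos rfl, mul_one, map_eq_zero] at h4
    · intro l _ hl
      rw [h.d, if_neg (fun h => hl h.symm), mul_zero]
    · intro h; exact absurd (Finset.mem_univ _) h

/-- a vector orthogonal to the hyperbolic family is independent of it -/
theorem Hyp.li_cons {ι : Type*} [DecidableEq ι] [Finite ι] {e e' : ι → V} (h : Hyp f e e') {y : V} (hy0 : y ≠ 0)
    (hy : y ∈ f.perp (Sum.elim e e')) : LinearIndependent F (Sum.elim (fun _ : Fin 1 => y) (Sum.elim e e')) := by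
  have := Fintype.ofFinite ι
  rw [Fintype.linearIndependent_iff]
  intro g hg
  rw [Fintype.sum_sum_type, Fintype.sum_sum_type] at hg
  simp only [Sum.elim_inl, Sum.elim_inr, Finset.univ_unique, Finset.sum_singleton] at hg
  have h1 : ∀ j, g (Sum.inr (Sum.inl j)) = 0 := by
    intro j
    have h4 := congrArg (f.B (e' j)) hg
    rw [f.add_right, f.add_right, f.B_zero_right, f.B_sum_right, f.B_sum_right, f.smul_right] at h4
    have h5 : f.B (e' j) y = 0 := hy (Sum.inr j)
    simp only [f.smul_right, h.B', mul_zero, Finset.sum_const_zero, add_zero, h5, zero_add] at h4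
    rw [Finset.sum_eq_single j] at h4
    · rw [h.d', if_pos rfl, mul_eq_zero, map_eq_zero] at h4
      exact h4.resolve_right (h.eps_ne j)
    · intro l _ hl
      rw [h.d', if_neg (fun h => hl h.symm), mul_zero]
    · intro h; exact absurd (Finset.mem_univ _) h
  have h2 : ∀ j, g (Sum.inr (Sum.inr j)) = 0 := by
    intro j
    have h4 := congrArg (f.B (e j)) hg
    rw [f.add_right, f.add_right, f.B_zero_right, f.B_sum_right, f.B_sum_right, f.smul_right] at h4
    have h5 : f.B (e j) y = 0 := hy (Sum.inl j)
    simp only [f.smul_right, h.B, mul_zero, Finset.sum_const_zero, zero_add, h5] at h4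
    rw [Finset.sum_eq_single j] at h4
    · rwa [h.d, if_pos rfl, mul_one, map_eq_zero] at h4
    · intro l _ hl
      rw [h.d, if_neg (fun h => hl h.symm), mul_zero]
    · intro h; exact absurd (Finset.mem_univ _) h
  simp only [h1, h2, zero_smul, Finset.sum_const_zero, add_zero] at hg
  rintro (i | j | j)
  · rw [Subsingleton.elim i default]
    exact (smul_eq_zero.1 hg).resolve_right hy0
  · exact h1 j
  · exact h2 j

variable (f) [Finite V]

variable {k : Type*} [Field k] [Finite k] [Algebra k F] [Module k V] [IsScalarTower k F V]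
  (hσ : ∀ c : k, f.σ (algebraMap k F c) = algebraMap k F c)

include hσ

/-- a singular vector in every subspace of dimension three -/
theorem exists_singular (Y : Submodule F V) (h3 : 3 ≤ finrank F Y) : ∃ y ∈ Y, y ≠ 0 ∧ f.q y = 0 := by
  let i : Y →ₗ[k] V := Y.subtype.restrictScalars k
  have : Module.Finite k F := Module.Finite.of_finite
  have : Module.Finite F V := Module.Finite.of_finite
  obtain ⟨y, hy, h1⟩ := zero_one ((f.qMap hσ).comp i) h3
  exact ⟨y, y.2, fun h => hy (Subtype.ext h), h1⟩

theorem Hyp.extend {ι : Type*} [DecidableEq ι] [Fintype ι] {e e' : ι → V} (h : Hyp f e e')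
    (h3 : 2 * Fintype.card ι + 3 ≤ finrank F V) : ∃ y y' : V, f.q y = 0 ∧ f.q y' = 0 ∧ f.B y y' = 1 ∧
      (∀ i, f.B (e i) y = 0 ∧ f.B (e' i) y = 0) ∧ ∀ i, f.B (e i) y' = 0 ∧ f.B (e' i) y' = 0 := by
  have := Fintype.ofFinite F
  have : Module.Finite F V := Module.Finite.of_finite
  have hF : 1 < Nat.card F := Finite.one_lt_card
  have h1 := f.card_perp (Sum.elim e e')
  rw [Module.natCard_eq_pow_finrank (K := F) (V := V), Module.natCard_eq_pow_finrank (K := F) (V := f.perp _),
    ← pow_add, Nat.card_eq_fintype_card (α := ι ⊕ ι), Fintype.card_sum] at h1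
  have h2 := (Nat.pow_le_pow_iff_right hF).1 h1
  obtain ⟨y, hy, hy0, hq⟩ := exists_singular f hσ (f.perp (Sum.elim e e')) (by omega)
  obtain ⟨w, w1, w2, w3, -⟩ := exists_dual_family f (u := fun _ : Fin 1 => y) (a := Sum.elim e e') (fun _ => hq)
    (fun _ _ => f.iso y hq) (fun i _ => hy i) (h.li_cons hy0 hy)
  refine ⟨y, w 0, hq, w1 0, ?_, fun i => ⟨hy (Sum.inl i), hy (Sum.inr i)⟩,
    fun i => ⟨w3 (Sum.inl i) 0, w3 (Sum.inr i) 0⟩⟩
  have := w2 0 0
  rwa [if_pos rfl] at this

theorem Hyp.exists_max {ι : Type*} [DecidableEq ι] [Fintype ι] {e e' : ι → V} (h : Hyp f e e') (n : ℕ)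
    (hn : n = 0 ∨ 2 * (Fintype.card ι + n) + 1 ≤ finrank F V) :
    ∃ g g' : Fin n → V, Hyp f (Sum.elim e g) (Sum.elim e' g') := by
  induction n with
  | zero =>
    refine ⟨Fin.elim0, Fin.elim0, ⟨?_, ?_, ?_, ?_, ?_⟩⟩
    · rintro (i | i); exacts [h.q i, i.elim0]
    · rintro (i | i); exacts [h.q' i, i.elim0]
    · rintro (i | i) (j | j); exacts [h.B i j, j.elim0, i.elim0, i.elim0]
    · rintro (i | i) (j | j); exacts [h.B' i j, j.elim0, i.elim0, i.elim0]
    · rintro (i | i) (j | j)
      · simp only [Sum.elim_inl, h.d, Sum.inl.injEq]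
      exacts [j.elim0, i.elim0, i.elim0]
  | succ n ih =>
    obtain ⟨g, g', hg⟩ := ih (Or.inr (by omega))
    obtain ⟨y, y', h1, h2, h3, h4, h5⟩ := Hyp.extend f hσ hg (by
      rw [Fintype.card_sum, Fintype.card_fin]; omega)
    have a1 : ∀ i, f.B (e i) y = 0 := fun i => (h4 (Sum.inl i)).1
    have a2 : ∀ i, f.B (e' i) y = 0 := fun i => (h4 (Sum.inl i)).2
    have a3 : ∀ i, f.B (g i) y = 0 := fun i => (h4 (Sum.inr i)).1
    have a4 : ∀ i, f.B (g' i) y = 0 := fun i => (h4 (Sum.inr i)).2
    have b1 : ∀ i, f.B (e i) y' = 0 := fun i => (h5 (Sum.inl i)).1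
    have b2 : ∀ i, f.B (e' i) y' = 0 := fun i => (h5 (Sum.inl i)).2
    have b3 : ∀ i, f.B (g i) y' = 0 := fun i => (h5 (Sum.inr i)).1
    have b4 : ∀ i, f.B (g' i) y' = 0 := fun i => (h5 (Sum.inr i)).2
    refine ⟨Fin.snoc g y, Fin.snoc g' y', ⟨?_, ?_, ?_, ?_, ?_⟩⟩
    · rintro (i | i)
      · exact hg.q (Sum.inl i)
      · refine Fin.lastCases ?_ (fun i => ?_) i
        · simpa using h1
        · simpa using hg.q (Sum.inr i)
    · rintro (i | i)
      · exact hg.q' (Sum.inl i)
      · refine Fin.lastCases ?_ (fun i => ?_) i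
        · simpa using h2
        · simpa using hg.q' (Sum.inr i)
    · rintro (i | i) (j | j)
      · exact h.B i j
      · refine Fin.lastCases ?_ (fun j => ?_) j
        · simpa using a1 i
        · simpa using hg.B (Sum.inl i) (Sum.inr j)
      · refine Fin.lastCases ?_ (fun i => ?_) i
        · simpa using f.refl (a1 j)
        · simpa using hg.B (Sum.inr i) (Sum.inl j)
      · refine Fin.lastCases ?_ (fun i => ?_) i <;> refine Fin.lastCases ?_ (fun j => ?_) j
        · simpa using f.iso y h1
        · simpa using f.refl (a3 j)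
        · simpa using a3 i
        · simpa using hg.B (Sum.inr i) (Sum.inr j)
    · rintro (i | i) (j | j)
      · exact h.B' i j
      · refine Fin.lastCases ?_ (fun j => ?_) j
        · simpa using b2 i
        · simpa using hg.B' (Sum.inl i) (Sum.inr j)
      · refine Fin.lastCases ?_ (fun i => ?_) i
        · simpa using f.refl (b2 j)
        · simpa using hg.B' (Sum.inr i) (Sum.inl j)
      · refine Fin.lastCases ?_ (fun i => ?_) i <;> refine Fin.lastCases ?_ (fun j => ?_) j
        · simpa using f.iso y' h2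
        · simpa using f.refl (b4 j)
        · simpa using b4 i
        · simpa using hg.B' (Sum.inr i) (Sum.inr j)
    · rintro (i | i) (j | j)
      · simp only [Sum.elim_inl, h.d, Sum.inl.injEq]
      · refine Fin.lastCases ?_ (fun j => ?_) j
        · simpa using b1 i
        · simpa using hg.d (Sum.inl i) (Sum.inr j)
      · refine Fin.lastCases ?_ (fun i => ?_) i
        · simpa using f.refl (a2 j)
        · simpa using hg.d (Sum.inr i) (Sum.inl j)
      · refine Fin.lastCases ?_ (fun i => ?_) i <;> refine Fin.lastCases ?_ (fun j => ?_) j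
        · simpa using h3
        · have := f.refl (a4 j)
          simpa [Fin.ext_iff, (j.castSucc_lt_last).ne'] using this
        · simpa using b3 i
        · simpa using hg.d (Sum.inr i) (Sum.inr j)

end dual

end Cfsg.Agent.H920.FP
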