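import Cfsg.Agent.H920.FP.Row
import Cfsg.Agent.H920.FP.G7
import Cfsg.Agent.H917.FP.Mat
import Cfsg.Agent.H917.FP.SLTwo

/-!
# Large support, groups with a form (helper920, S5717)

`form_large`: `x : M` with support at least `10 a + 1` has `fpr {x} ^ 4 ≤ (2 B + 38) β ^ a`, given the top value
`fpr (θ(SL_w)) ≤ B β ^ (8 w)`, `β ^ 64 ≥ 1 / q`.
-/

set_option autoImplicit false
set_option linter.unusedSectionVars false

namespace Cfsg.Agent.H920.FP

open Module Matrix Cfsg.Agent.H917.FP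

section

variable {M : Type} [Group M] {ι : Type} [Fintype ι] [DecidableEq ι] {F : Type} [Field F] {m : M → Matrix ι ι F}

/-- the group `θ(SL)` lies in `M` -/
theorem MRow.exists_psi [Finite F] (R : MRow M m) {κ : Type} [Fintype κ] [DecidableEq κ] {e e' : κ → (ι → F)}
    (h : Hyp R.f e e') (hκ : 3 ≤ Fintype.card κ) :
    ∃ ψ : Matrix.SpecialLinearGroup κ F →* M, ∀ g, R.ρ (ψ g) = h.theta g := by
  have hperf : commutator (Matrix.SpecialLinearGroup κ F) = ⊤ :=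
    Cfsg.Agent.LieClassical.SLGen.commutator_eq_top hκ
  have h1 : ⁅h.theta.range, h.theta.range⁆ = h.theta.range := by
    rw [MonoidHom.range_eq_map, ← Subgroup.map_commutator, ← commutator_def, hperf]
  have h2 : h.theta.range ≤ R.ρ.range := by
    apply R.perf _ _ h1
    rintro _ ⟨g, rfl⟩
    exact h.theta_isom g
  let E : M ≃* R.ρ.range := MonoidHom.ofInjective R.inj
  refine ⟨E.symm.toMonoidHom.comp (h.theta.codRestrict R.ρ.range fun g => h2 ⟨g, rfl⟩), fun g => ?_⟩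
  have h3 := E.apply_symm_apply (h.theta.codRestrict R.ρ.range (fun g => h2 ⟨g, rfl⟩) g)
  exact congrArg Subtype.val h3

/-- **Large support.** -/
theorem form_large [Fintype F] (R : MRow M m) (Ω : Type*) [MulAction M Ω] [Finite Ω] (x : M) {s : ℕ}
    (hf : Far (R.ρ x).toLinearMap s) (a n : ℕ) (ha : 2 ≤ a) (hs : 10 * a + 1 ≤ s)
    (hn : n = 0 ∨ 2 * (2 * a + n) + 1 ≤ Fintype.card ι) (h8 : 8 ≤ 2 * a + n) {B β : ℝ} (hB : 0 ≤ B)
    (hβ0 : 0 < β) (hβ1 : β ≤ 1) (hβq : 1 / (Nat.card F : ℝ) ≤ β ^ 64)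
    (htop : ∀ (e e' : (Fin a ⊕ Fin a) ⊕ Fin n → (ι → F)) (h : Hyp R.f e e')
      (ψ : Matrix.SpecialLinearGroup ((Fin a ⊕ Fin a) ⊕ Fin n) F →* M), (∀ g, R.ρ (ψ g) = h.theta g) →
      fpr Ω (Set.range ψ) ≤ B * β ^ (8 * (2 * a + n))) :
    fpr Ω {x} ^ 4 ≤ (2 * B + 38) * β ^ a := by
  classical
  obtain ⟨p, hp⟩ := CharP.exists F
  have : Fact p.Prime := ⟨CharP.char_is_prime F p⟩
  let _ : Algebra (ZMod p) F := ZMod.algebra F p
  have hcard : Fintype.card ((Fin a ⊕ Fin a) ⊕ Fin n) = 2 * a + n := by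
    rw [Fintype.card_sum, Fintype.card_sum, Fintype.card_fin, Fintype.card_fin]; ring
  obtain ⟨e, e', h, hcomm⟩ := form_theta (k := ZMod p) R.f (sigma_zmod R.f) (R.iso x) hf a n (by omega) hs
    (by rwa [Module.finrank_fintype_fun_eq_card])
  obtain ⟨ψ, hψ⟩ := R.exists_psi h (by rw [hcard]; omega)
  obtain ⟨K, _, _, _, hK⟩ := Cfsg.Agent.H917.CJ.exists_ext F a (by omega)
  have : FiniteDimensional F K := FiniteDimensional.of_finrank_pos (by omega)
  have := Fintype.ofFinite K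
  let b : Basis (Fin a) F K := (Module.finBasis F K).reindex (finCongr hK)
  have hKc : Nat.card K = Nat.card F ^ a := by
    rw [Module.natCard_eq_pow_finrank (K := F), hK]
  have hF2 : 2 ≤ Nat.card F := Finite.one_lt_card
  have hK4 : 4 ≤ Fintype.card K := by
    rw [← Nat.card_eq_fintype_card, hKc]
    calc 4 = 2 ^ 2 := rfl
      _ ≤ Nat.card F ^ 2 := Nat.pow_le_pow_left hF2 2
      _ ≤ Nat.card F ^ a := Nat.pow_le_pow_right (by omega) ha
  have hmb := mat_bound (Ω := Ω) hB hβ0 hβ1 hβq b (by rw [Fintype.card_fin]; exact ha) ψ (by rw [hcard]; exact h8)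
    (by rw [hcard]; exact htop e e' h ψ hψ)
  rw [Fintype.card_fin] at hmb
  set φ : Matrix.SpecialLinearGroup (Fin 2) K →* M := ψ.comp (blk.comp (sl2K b)) with hφ
  have hKR : (Fintype.card K : ℝ) = (Nat.card F : ℝ) ^ a := by
    rw [← Nat.card_eq_fintype_card, hKc]; push_cast; rfl
  have hq0 : (0 : ℝ) < Nat.card F := by exact_mod_cast Nat.card_pos
  have hβa : 0 < β ^ a := pow_pos hβ0 a
  have hmain := fpr_of_commute Ω φ x (fun c y => ?_) (δ := (B + 7) * β ^ a + 7 / √(Fintype.card K : ℝ))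
    (by positivity) (fun z hz => (fpr_sl2_hom hK4 φ hz).trans (by linarith))
  · -- the numbers
    have e1 : 1 / (Nat.card K : ℝ) ≤ β ^ (64 * a) := by
      rw [Nat.card_eq_fintype_card, hKR]
      exact inv_pow_le hq0 hβ0 hβ1 hβq le_rfl
    have e2 : β ^ (64 * a) ≤ β ^ a := pow_le_pow_of_le_one hβ0.le hβ1 (by omega)
    have e3 : 1 / √(Fintype.card K : ℝ) ≤ β ^ a := by
      have h0 : (0 : ℝ) < Fintype.card K := by rw [hKR]; positivity
      have h1 : (1 / √(Fintype.card K : ℝ)) ^ 2 ≤ (β ^ a) ^ 2 := by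
        rw [div_pow, one_pow, Real.sq_sqrt h0.le, ← Nat.card_eq_fintype_card, ← pow_mul]
        exact e1.trans (pow_le_pow_of_le_one hβ0.le hβ1 (by omega))
      exact le_of_sq_le_sq' h1 hβa.le
    have e4 : 7 / √(Fintype.card K : ℝ) = 7 * (1 / √(Fintype.card K : ℝ)) := by ring
    have e5 : 10 / (Nat.card K : ℝ) = 10 * (1 / (Nat.card K : ℝ)) := by ring
    rw [e4, e5] at hmain
    nlinarith
  · -- commutation
    have h1 : R.ρ (x * φ (lo c) * x⁻¹) = R.ρ x * h.theta (blk (low (Algebra.leftMulMatrix b c))) * (R.ρ x)⁻¹ := by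
      rw [map_mul, map_mul, map_inv, hφ]
      show R.ρ x * R.ρ (ψ (blk (sl2K b (lo c)))) * (R.ρ x)⁻¹ = _
      rw [hψ, sl2K_lo]
    have h2 : R.ρ (φ y) = h.theta (blk (sl2K b y)) := hψ _
    have h3 := hcomm (Algebra.leftMulMatrix b c) (sl2K b y)
    rw [← h1, ← h2] at h3
    apply R.inj
    have h4 : R.ρ ((x * φ (lo c) * x⁻¹) * φ y) = R.ρ (x * φ (lo c) * x⁻¹) * R.ρ (φ y) := map_mul _ _ _
    have h5 : R.ρ (φ y * (x * φ (lo c) * x⁻¹)) = R.ρ (φ y) * R.ρ (x * φ (lo c) * x⁻¹) := map_mul _ _ _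
    rw [h4, h5]
    exact h3

end

end Cfsg.Agent.H920.FP
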