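import Cfsg.Agent.H920.FP.Comm
import Cfsg.Prelude.Def_Classical

/-!
# The classical matrix groups as isometry groups (helper920, S5717): statements only

`MRow M m`: the matrix group `M` (natural matrices `m`) is a group of isometries of a form `f` and contains all perfect groups of
isometries. The instances (`Sp`, `SU`, `Ω` of `Def_Classical`) are proved elsewhere (`StSp` ... `StOMinus`).
-/

set_option autoImplicit false

namespace Cfsg.Agent.H920.FP

open Module Matrix

structure MRow (M : Type) [Group M] {ι : Type} [Fintype ι] [DecidableEq ι] {F : Type} [Field F]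
    (m : M → Matrix ι ι F) where
  f : Frm F (ι → F)
  ρ : M →* ((ι → F) ≃ₗ[F] (ι → F))
  coe : ∀ x v, ρ x v = m x *ᵥ v
  inj : Function.Injective ρ
  iso : ∀ x, f.Isom (ρ x)
  perf : ∀ S : Subgroup ((ι → F) ≃ₗ[F] (ι → F)), (∀ g ∈ S, f.Isom g) → ⁅S, S⁆ = S → S ≤ ρ.range

/-- the matrix of an element of `Omega F Q` -/
def omMat {ι : Type} [Fintype ι] [DecidableEq ι] {F : Type} [Field F] (Q : (ι → F) → F)
    (x : Cfsg.Omega F Q) : Matrix ι ι F := (x.1.1 : GL ι F).1

def StSp : Prop := ∀ (F : Type) [Field F] [Fintype F] (m : ℕ),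
  Nonempty (MRow (Matrix.symplecticGroup (Fin m) F) (fun x => (x : Matrix (Fin m ⊕ Fin m) (Fin m ⊕ Fin m) F)))

def StSU : Prop := ∀ (F : Type) [Field F] [Fintype F] (n q : ℕ), Fintype.card F = q ^ 2 →
  Nonempty (MRow (Cfsg.SU n F q) (fun x => ((x : Matrix.SpecialLinearGroup (Fin n) F) : Matrix (Fin n) (Fin n) F)))

def StOOdd : Prop := ∀ (F : Type) [Field F] [Fintype F] (m : ℕ), Odd (Fintype.card F) →
  Nonempty (MRow (Cfsg.Omega F (Cfsg.quadFormOdd m F)) (omMat (Cfsg.quadFormOdd m F)))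

def StOPlus : Prop := ∀ (F : Type) [Field F] [Fintype F] (m : ℕ),
  Nonempty (MRow (Cfsg.Omega F (Cfsg.quadFormPlus m F)) (omMat (Cfsg.quadFormPlus m F)))

def StOMinus : Prop := ∀ (F : Type) [Field F] [Fintype F] (m : ℕ) (a b : F),
  (∀ z₁ z₂ : F, z₁ ^ 2 + a * z₁ * z₂ + b * z₂ ^ 2 = 0 → z₁ = 0 ∧ z₂ = 0) →
  Nonempty (MRow (Cfsg.Omega F (Cfsg.quadFormMinus m F a b)) (omMat (Cfsg.quadFormMinus m F a b)))

/-- the field endomorphism of a form is the identity on the prime field -/
theorem sigma_zmod {F V : Type*} [Field F] [AddCommGroup V] [Module F V] (f : Frm F V) {p : ℕ} [Fact p.Prime]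
    [Algebra (ZMod p) F] (c : ZMod p) : f.σ (algebraMap (ZMod p) F c) = algebraMap (ZMod p) F c := by
  have h : f.σ.comp (algebraMap (ZMod p) F) = algebraMap (ZMod p) F := RingHom.ext_zmod _ _
  exact RingHom.congr_fun h c

end Cfsg.Agent.H920.FP
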