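import Cfsg.Agent.H920.FP.Large
import Cfsg.Agent.H254.BS.PartI

/-!
# Large support in terms of `supp` (helper920, S5717)
-/

set_option autoImplicit false
set_option linter.unusedSectionVars false

namespace Cfsg.Agent.H920.FP

open Module Matrix Cfsg.Agent.H917.FP
open Cfsg.Agent.H254.BS.PI (supp)

section

variable {ι : Type} [Fintype ι] [DecidableEq ι] {F : Type} [Field F]

theorem supp_le_rank (A : Matrix ι ι F) (μ : F) : supp A ≤ (A - Matrix.scalar ι μ).rank :=
  Nat.sInf_le ⟨μ, rfl⟩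

theorem supp_le_card (A : Matrix ι ι F) : supp A ≤ Fintype.card ι :=
  (supp_le_rank A 0).trans (Matrix.rank_le_card_width _)

theorem far_of_supp [Finite F] (A : Matrix ι ι F) (x : (ι → F) →ₗ[F] (ι → F)) (hx : ∀ v, x v = A *ᵥ v) :
    Far x (supp A) := by
  classical
  intro a b hab
  have hF : 1 ≤ Nat.card F := Nat.card_pos
  have hV : Nat.card (ι → F) = Nat.card F ^ Fintype.card ι := by
    rw [Module.natCard_eq_pow_finrank (K := F), Module.finrank_fintype_fun_eq_card]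
  by_cases hb : b = 0
  · subst hb
    have ha : a ≠ 0 := by simpa using hab
    have h1 : Nat.card {u : ι → F // a • u + (0 : F) • x u = 0} = 1 := by
      rw [Nat.card_eq_one_iff_unique]
      refine ⟨⟨fun u v => Subtype.ext ?_⟩, ⟨⟨0, by simp⟩⟩⟩
      have h2 := u.2
      have h3 := v.2
      rw [zero_smul, add_zero, smul_eq_zero] at h2 h3
      rw [h2.resolve_left ha, h3.resolve_left ha]
    rw [h1, one_mul, hV]
    exact Nat.pow_le_pow_right hF (supp_le_card A)
  · have h1 : Nat.card {u : ι → F // a • u + b • x u = 0} =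
        Nat.card (LinearMap.ker (Matrix.toLin' (A - Matrix.scalar ι (-(b⁻¹ * a))))) := by
      refine Nat.card_congr (Equiv.subtypeEquivRight fun u => ?_)
      rw [LinearMap.mem_ker, Matrix.toLin'_apply, Matrix.sub_mulVec, hx]
      have h2 : Matrix.scalar ι (-(b⁻¹ * a)) *ᵥ u = (-(b⁻¹ * a)) • u := by
        rw [Matrix.scalar_apply]
        funext i
        rw [Matrix.mulVec_diagonal]
        simp
      rw [h2]
      constructor
      · intro h
        have h3 := congrArg (fun w => b⁻¹ • w) h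
        simp only [smul_add, smul_smul, inv_mul_cancel₀ hb, one_smul, smul_zero] at h3
        rw [neg_smul, sub_neg_eq_add, add_comm]
        exact h3
      · intro h
        have h3 := congrArg (fun w => b • w) h
        simp only [smul_sub, smul_smul, smul_zero] at h3
        rw [mul_neg, ← mul_assoc, mul_inv_cancel₀ hb, one_mul, neg_smul, sub_neg_eq_add] at h3
        rw [add_comm]
        exact h3
    rw [h1, Module.natCard_eq_pow_finrank (K := F), hV, ← pow_add]
    apply Nat.pow_le_pow_right hF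
    have h2 := LinearMap.finrank_range_add_finrank_ker (Matrix.toLin' (A - Matrix.scalar ι (-(b⁻¹ * a))))
    rw [Module.finrank_fintype_fun_eq_card] at h2
    have h3 := supp_le_rank A (-(b⁻¹ * a))
    have h4 : (A - Matrix.scalar ι (-(b⁻¹ * a))).rank =
        finrank F (LinearMap.range (Matrix.toLin' (A - Matrix.scalar ι (-(b⁻¹ * a))))) := rfl
    omega

variable {M : Type} [Group M] {m : M → Matrix ι ι F}

/-- the top value -/
def TopVal [Fintype F] (B : ℝ) (R : MRow M m) : Prop :=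
  ∀ (Ω : Type) [Finite Ω] [MulAction M Ω], (∀ ω : Ω, ∃ g : M, g • ω ≠ ω) →
    ∀ (κ : Type) [Fintype κ] [DecidableEq κ] (e e' : κ → (ι → F)) (h : Hyp R.f e e')
      (ψ : Matrix.SpecialLinearGroup κ F →* M), (∀ g, R.ρ (ψ g) = h.theta g) →
      2 * Fintype.card κ + 1 ≤ Fintype.card ι → Fintype.card ι ≤ 2 * Fintype.card κ + 2 → 8 ≤ Fintype.card κ →
      fpr Ω (Set.range ψ) ^ 8 * (Fintype.card F : ℝ) ^ Fintype.card κ ≤ B

theorem num_pow {f D β q : ℝ} (hf0 : 0 ≤ f) (hD : 0 ≤ D) (hβ0 : 0 < β) (hq : 1 ≤ q) (hβ : β ^ 64 = 1 / q) {a s k : ℕ}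
    (h : f ^ 4 ≤ D * β ^ a) (hs : s ≤ k * a) : f ^ (4 * (64 * k)) * q ^ s ≤ D ^ (64 * k) := by
  have h1 : f ^ (4 * (64 * k)) ≤ D ^ (64 * k) * (1 / q) ^ (k * a) := by
    calc f ^ (4 * (64 * k)) = (f ^ 4) ^ (64 * k) := pow_mul _ _ _
      _ ≤ (D * β ^ a) ^ (64 * k) := pow_le_pow_left₀ (by positivity) h _
      _ = D ^ (64 * k) * (β ^ 64) ^ (k * a) := by
        rw [mul_pow, ← pow_mul, ← pow_mul]; congr 2; ring
      _ = D ^ (64 * k) * (1 / q) ^ (k * a) := by rw [hβ]
  have h2 : (1 / q) ^ (k * a) * q ^ s ≤ 1 := by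
    calc (1 / q) ^ (k * a) * q ^ s ≤ (1 / q) ^ (k * a) * q ^ (k * a) := by
          apply mul_le_mul_of_nonneg_left (pow_le_pow_right₀ hq hs) (by positivity)
      _ = 1 := by
        rw [← mul_pow, one_div, inv_mul_cancel₀ (by linarith), one_pow]
  calc f ^ (4 * (64 * k)) * q ^ s ≤ (D ^ (64 * k) * (1 / q) ^ (k * a)) * q ^ s :=
        mul_le_mul_of_nonneg_right h1 (by positivity)
    _ = D ^ (64 * k) * ((1 / q) ^ (k * a) * q ^ s) := by ring
    _ ≤ D ^ (64 * k) * 1 := mul_le_mul_of_nonneg_left h2 (by positivity)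
    _ = D ^ (64 * k) := mul_one _

theorem form_strong (B : ℝ) : ∃ C : ℕ, 0 < C ∧ ∀ (M : Type) [Group M] (ι : Type) [Fintype ι] [DecidableEq ι]
    (F : Type) [Field F] [Fintype F] (m : M → Matrix ι ι F) (R : MRow M m), TopVal B R → 17 ≤ Fintype.card ι →
    ∀ x : M, 21 ≤ supp (m x) → ∀ (Ω : Type) [Finite Ω] [MulAction M Ω], (∀ ω : Ω, ∃ g : M, g • ω ≠ ω) →
      fpr Ω {x} ^ C * (Fintype.card F : ℝ) ^ supp (m x) ≤ C := by
  obtain ⟨B', hB1, hBB⟩ : ∃ B' : ℝ, 1 ≤ B' ∧ B ≤ B' := ⟨max 1 B, le_max_left _ _, le_max_right _ _⟩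
  obtain ⟨D, hD⟩ := exists_nat_ge ((2 * B' + 38) ^ (64 * 20))
  obtain ⟨E, hE⟩ : ∃ E : ℕ, E = 4 * (64 * 20) := ⟨_, rfl⟩
  refine ⟨max E D, lt_of_lt_of_le (by omega) (le_max_left _ _), ?_⟩
  intro M _ ι _ _ F _ _ m R hT hι x hx Ω _ _ hΩ
  set q : ℝ := (Fintype.card F : ℝ) with hq
  have hF2 : 2 ≤ Fintype.card F := Fintype.one_lt_card
  have hq2 : (2 : ℝ) ≤ q := by rw [hq]; exact_mod_cast hF2
  -- `β = q ^ (-1/64)`
  obtain ⟨β, hβ0, hβ⟩ : ∃ β : ℝ, 0 < β ∧ β ^ 64 = 1 / q := by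
    refine ⟨(1 / q) ^ ((1 : ℝ) / 64), Real.rpow_pos_of_pos (by positivity) _, ?_⟩
    rw [← Real.rpow_natCast, ← Real.rpow_mul (by positivity)]
    norm_num
  have hβ1 : β ≤ 1 := by
    by_contra hcon
    push Not at hcon
    have h1 : 1 < β ^ 64 := one_lt_pow₀ hcon (by norm_num)
    rw [hβ] at h1
    have h2 : 1 / q ≤ 1 := by rw [div_le_one (by linarith)]; linarith
    linarith
  set s := supp (m x) with hs
  have hsι : s ≤ Fintype.card ι := supp_le_card _
  set a := (s - 1) / 10 with ha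
  set n := (Fintype.card ι - 1) / 2 - 2 * a with hn
  have hw : 2 * a + n = (Fintype.card ι - 1) / 2 := by omega
  have hlarge := form_large R Ω x (s := s) (far_of_supp (m x) _ (R.coe x)) a n (by omega) (by omega)
    (Or.inr (by omega)) (by omega) (B := B') (β := β) (by linarith) hβ0 hβ1
    (by rw [Nat.card_eq_fintype_card, ← hq, hβ]) ?_
  · -- numbers
    set f := fpr Ω {x} with hf
    have hf0 : 0 ≤ f := fpr_nonneg Ω _
    have hf1 : f ≤ 1 := fpr_le_one Ω _
    have hD0 : (0 : ℝ) < 2 * B' + 38 := by linarith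
    have h1 := num_pow hf0 hD0.le hβ0 (by linarith) hβ hlarge (s := s) (k := 20) (by omega)
    rw [← hE] at h1
    have h4 : f ^ (max E D) ≤ f ^ E := pow_le_pow_of_le_one hf0 hf1 (le_max_left _ _)
    have h5 : f ^ (max E D) * q ^ s ≤ f ^ E * q ^ s := mul_le_mul_of_nonneg_right h4 (by positivity)
    refine (h5.trans (h1.trans hD)).trans ?_
    exact_mod_cast le_max_right _ _
  · intro e e' h ψ hψ
    have hc : Fintype.card ((Fin a ⊕ Fin a) ⊕ Fin n) = 2 * a + n := by
      rw [Fintype.card_sum, Fintype.card_sum, Fintype.card_fin, Fintype.card_fin]; ring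
    have h1 := hT Ω hΩ _ e e' h ψ hψ (by rw [hc]; omega) (by rw [hc]; omega) (by rw [hc]; omega)
    rw [hc] at h1
    set g := fpr Ω (Set.range ψ) with hg
    have hg0 : 0 ≤ g := fpr_nonneg Ω _
    have h2 : g ^ 8 ≤ (B' * β ^ (8 * (2 * a + n))) ^ 8 := by
      have h3 : (B' * β ^ (8 * (2 * a + n))) ^ 8 = B' ^ 8 * (1 / q) ^ (2 * a + n) := by
        rw [mul_pow, ← pow_mul, ← hβ, ← pow_mul]; congr 2; ring
      rw [h3]
      have h4 : g ^ 8 ≤ B' * (1 / q) ^ (2 * a + n) := by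
        rw [one_div, inv_pow, ← div_eq_mul_inv, le_div_iff₀ (by positivity)]
        exact h1.trans hBB
      refine h4.trans ?_
      gcongr
      exact le_self_pow₀ hB1 (by norm_num)
    exact le_of_pow_le_pow_left₀ (by norm_num) (by positivity) h2

end

end Cfsg.Agent.H920.FP
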